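import Cfsg.Agent.H27.CovRuD1

/-! The double cover of the Rudvalis group. Checks. -/

set_option maxRecDepth 100000
set_option Elab.async false

namespace H27.CovRu

open Cfsg H13 H15 H14.PK H14.RK

theorem c1_4 : relOk (fB 16 16240 Ru.bs tbs) (MG.ssF lv) (nat_lit 3401) (nat_lit 850) = true := by decide +kernel

theorem c1_13 : relOk (fB 16 16240 Ru.bs tbs) (MG.ssF lv) (nat_lit 11559) (nat_lit 963) = true := by decide +kernel

theorem c1_6 : relOk (fB 16 16240 Ru.bs tbs) (MG.ssF lv) (nat_lit 5213) (nat_lit 788) = true := by decide +kernel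

theorem c1_2 : relOk (fB 16 16240 Ru.bs tbs) (MG.ssF lv) (nat_lit 1873) (nat_lit 782) = true := by decide +kernel

theorem c1_11 : relOk (fB 16 16240 Ru.bs tbs) (MG.ssF lv) (nat_lit 9457) (nat_lit 942) = true := by decide +kernel

theorem c2_3 : relOk (fN 16 16240 nets) (defE ds []) (nat_lit 40) (nat_lit 9) = true := by decide +kernel

theorem d2c_0 : rng (fun i => cnOk d2D (nthD (.con [] 0 0, 0) d2cs i)) (nat_lit 0) (nat_lit 117) = true := by decide +kernel

theorem tq_0 : rng (MG.tqF 16 16240 nets tbs) (nat_lit 0) (nat_lit 11) = true := by decide +kernel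

theorem tq_3 : rng (MG.tqF 16 16240 nets tbs) (nat_lit 33) (nat_lit 11) = true := by decide +kernel

theorem d3low : MG.pcL 16 16240 45 d3D [(nat_lit 32, [nat_lit 45, nat_lit 46]), (nat_lit 4, [nat_lit 45])] tbs = true := by decide +kernel

theorem c1_15 : relOk (fB 16 16240 Ru.bs tbs) (MG.ssF lv) (nat_lit 13921) (nat_lit 183) = true := by decide +kernel

theorem cd5_0 : relOk (fB 16 16240 Ru.bs tbs) (shE 49 (pcE d5D)) (nat_lit 0) (nat_lit 9) = true := by decide +kernel

theorem d5c_0 : rng (fun i => cnOk d5D (nthD (.con [] 0 0, 0) d5cs i)) (nat_lit 0) (nat_lit 5) = true := by decide +kernel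

theorem d5t_0 : tgAll d5D d5cs d5Fs d5la (nat_lit 0) (nat_lit 3) = true := by decide +kernel

theorem d3ok : d3D.ok = true := by decide +kernel

theorem d5ok : d5D.ok = true := by decide +kernel

end H27.CovRu
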