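import Cfsg.Agent.H27.CovRuD1

/-! The double cover of the Rudvalis group. Checks. -/

set_option maxRecDepth 100000
set_option Elab.async false

namespace H27.CovRu

open Cfsg H13 H15 H14.PK H14.RK

theorem c1_8 : relOk (fB 16 16240 Ru.bs tbs) (MG.ssF lv) (nat_lit 6780) (nat_lit 743) = true := by decide +kernel

theorem c1_5 : relOk (fB 16 16240 Ru.bs tbs) (MG.ssF lv) (nat_lit 4251) (nat_lit 962) = true := by decide +kernel

theorem c1_9 : relOk (fB 16 16240 Ru.bs tbs) (MG.ssF lv) (nat_lit 7523) (nat_lit 887) = true := by decide +kernel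

theorem c1_7 : relOk (fB 16 16240 Ru.bs tbs) (MG.ssF lv) (nat_lit 6001) (nat_lit 779) = true := by decide +kernel

theorem c1_0 : relOk (fB 16 16240 Ru.bs tbs) (MG.ssF lv) (nat_lit 0) (nat_lit 1075) = true := by decide +kernel

theorem c2_1 : relOk (fN 16 16240 nets) (defE ds []) (nat_lit 21) (nat_lit 11) = true := by decide +kernel

theorem c2_2 : relOk (fN 16 16240 nets) (defE ds []) (nat_lit 32) (nat_lit 8) = true := by decide +kernel

theorem tq_2 : rng (MG.tqF 16 16240 nets tbs) (nat_lit 22) (nat_lit 11) = true := by decide +kernel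

theorem d2low : MG.pcL 16 16240 28 d2D [(nat_lit 268, [nat_lit 28, nat_lit 29]), (nat_lit 2028, [nat_lit 28, nat_lit 30]), (nat_lit 560, (unp (nat_lit 6) (nat_lit 0x2681c03))), (nat_lit 0, [nat_lit 40])] tbs = true := by decide +kernel

theorem d2t_0 : tgAll d2D d2cs d2Fs d2la (nat_lit 0) (nat_lit 15) = true := by decide +kernel

theorem cd3_0 : relOk (fB 16 16240 Ru.bs tbs) (shE 45 (pcE d3D)) (nat_lit 0) (nat_lit 9) = true := by decide +kernel

theorem d3t_0 : tgAll d3D d3cs d3Fs d3la (nat_lit 0) (nat_lit 3) = true := by decide +kernel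

theorem d2cn : Nat.beq d2cs.length 117 = true := by decide +kernel

theorem d3cn : Nat.beq d3cs.length 5 = true := by decide +kernel

theorem d5cn : Nat.beq d5cs.length 5 = true := by decide +kernel

end H27.CovRu
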