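import Cfsg.Agent.H27.CovRuC0
import Cfsg.Agent.H27.CovRuC1
import Cfsg.Agent.H27.CovRuC2

/-! The double cover of the Rudvalis group. -/

set_option maxRecDepth 100000
set_option Elab.async false

namespace H27.CovRu

open Cfsg H13 H15 H14.PK H14.RK

theorem c2 : Chk (fN 16 16240 nets) (defE ds []) :=
  (((((ChkT.zero.add c2_0).add c2_1).add c2_2).add c2_3).add c2_4).chk (by decide +kernel)

theorem tq0 : ∀ i < 53, MG.tqF 16 16240 nets tbs i = true :=
  (rng_add (rng_add (rng_add (rng_add (rng_add rng_zero tq_0) tq_1) tq_2) tq_3) tq_4)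

theorem tq : MG.tabs 16 16240 nets 53 = tbs := MG.tabs_eq rfl tq0

theorem okN : H13.band (Nat.blt 0 16) (H13.band (Nat.ble 16240 (p2 (16 - 1))) (allL (Net.ok 16 16240) nets)) = true :=
  band_eq_true.2 ⟨rfl, band_eq_true.2 ⟨by decide +kernel, MG.nets_ok rfl tq0⟩⟩

theorem c1' : Chk (fB 16 16240 Ru.bs tbs) (MG.ssF lv) :=
  ((((((((((((((((ChkT.zero.add c1_0).add c1_1).add c1_2).add c1_3).add c1_4).add c1_5).add c1_6).add c1_7).add c1_8).add c1_9).add c1_10).add c1_11).add c1_12).add c1_13).add c1_14).add c1_15).chk (by decide +kernel)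

theorem c1 : Chk (fB 16 16240 Ru.bs (MG.tabs 16 16240 nets 53)) (ssE lv) := by
  rw [tq, ← MG.ssF_eq]
  exact c1'

theorem cd2' : Chk (fB 16 16240 Ru.bs tbs) (shE 28 (pcE d2D)) :=
  (ChkT.zero.add cd2_0).chk (by decide +kernel)

theorem cd2 : Chk (fB 16 16240 Ru.bs (MG.tabs 16 16240 nets 53)) (shE 28 (pcE d2D)) := by
  rw [tq]
  exact cd2'

theorem d2c : ∀ i < 117, (fun i => cnOk d2D (nthD (.con [] 0 0, 0) d2cs i)) i = true :=
  (rng_add rng_zero d2c_0)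

theorem d2ns {G : Type*} [Group G] [Finite G] {g : ℕ → G} (R : PcRel d2D g)
    (hP : d2D.p ^ d2D.n ≤ Nat.card (Subgroup.closure (g '' Set.Iio d2D.n))) (hG : ¬ 2 ^ 16 ∣ Nat.card G) :
    NoStem 2 G :=
  noStem_of (D := d2D) (show Nat.Prime 2 by norm_num) d2ok R (allR d2cn d2c) (rng_add rng_zero (tgAll_rng d2t_0)) d2h3 hP hG

theorem cd3' : Chk (fB 16 16240 Ru.bs tbs) (shE 45 (pcE d3D)) :=
  (ChkT.zero.add cd3_0).chk (by decide +kernel)

theorem cd3 : Chk (fB 16 16240 Ru.bs (MG.tabs 16 16240 nets 53)) (shE 45 (pcE d3D)) := by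
  rw [tq]
  exact cd3'

theorem d3c : ∀ i < 5, (fun i => cnOk d3D (nthD (.con [] 0 0, 0) d3cs i)) i = true :=
  (rng_add rng_zero d3c_0)

theorem d3ns {G : Type*} [Group G] [Finite G] {g : ℕ → G} (R : PcRel d3D g)
    (hP : d3D.p ^ d3D.n ≤ Nat.card (Subgroup.closure (g '' Set.Iio d3D.n))) (hG : ¬ 3 ^ 4 ∣ Nat.card G) :
    NoStem 3 G :=
  noStem_of (D := d3D) (show Nat.Prime 3 by norm_num) d3ok R (allR d3cn d3c) (rng_add rng_zero (tgAll_rng d3t_0)) d3h3 hP hG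

theorem cd5' : Chk (fB 16 16240 Ru.bs tbs) (shE 49 (pcE d5D)) :=
  (ChkT.zero.add cd5_0).chk (by decide +kernel)

theorem cd5 : Chk (fB 16 16240 Ru.bs (MG.tabs 16 16240 nets 53)) (shE 49 (pcE d5D)) := by
  rw [tq]
  exact cd5'

theorem d5c : ∀ i < 5, (fun i => cnOk d5D (nthD (.con [] 0 0, 0) d5cs i)) i = true :=
  (rng_add rng_zero d5c_0)

theorem d5ns {G : Type*} [Group G] [Finite G] {g : ℕ → G} (R : PcRel d5D g)
    (hP : d5D.p ^ d5D.n ≤ Nat.card (Subgroup.closure (g '' Set.Iio d5D.n))) (hG : ¬ 5 ^ 4 ∣ Nat.card G) :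
    NoStem 5 G :=
  noStem_of (D := d5D) (show Nat.Prime 5 by norm_num) d5ok R (allR d5cn d5c) (rng_add rng_zero (tgAll_rng d5t_0)) d5h3 hP hG

/-- the letters -/
noncomputable def h : ℕ → Equiv.Perm (Fin 16240) := permW 16 16240 nets okN

theorem Y : Sys (finPts 16240) 16 h nets := sys_permW _ _ nets okN

/-- the cover -/
noncomputable abbrev D := cl h (gsOf lv)

theorem hM : ∀ l < 53, h l ∈ D := fun l hl =>
  ((c2.rel (MG.sndY Y)).pass D).defM (M := mask (gsOf lv)) (fun i hi => mem_cl i (bt_mask hi)) l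
    (allLt_iff.1 (show allLt (bt (defM ds (mask (gsOf lv)))) 53 = true by decide +kernel) l hl)

theorem perf : commutator D = ⊤ :=
  MG.perf_of (a := 0) (b := 1) (r := 13) (s := 29) (t := 6) ((chk_of (by decide +kernel)).rel (MG.sndY Y)) (by norm_num)

theorem t0 : tabW 16 16240 nets [0] = Ru.Na.ap (idv 16 16240) := Nat.eq_of_beq_eq_true (by decide +kernel)

theorem t1 : tabW 16 16240 nets [1] = Ru.Nb.ap (idv 16 16240) := Nat.eq_of_beq_eq_true (by decide +kernel)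

theorem mult : HasCyclicSchurMultiplier Spor.Ru 2 := by
  obtain ⟨-, S, R, a, b, h1, M, h2, h3, h4, h5⟩ := Ru.main
  have e : gsOf lv = [0, 1] := rfl
  obtain ⟨φ, S', b1, b2, b3, -, b4⟩ := MG.exists_sub Y h1 (gs := gsOf lv) (by
    rw [e]
    exact List.forall_mem_cons.2 ⟨⟨a, trivial, h2.trans t0.symm⟩, List.forall_mem_singleton.2 ⟨b, trivial, h3.trans t1.symm⟩⟩)
    hM (by rw [e]; decide)
  have := S'.finite
  let σ : D →* Spor.Ru := (QuotientGroup.mk' _).comp φ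
  have ha : (a : Spor.Ru) ∈ σ.range := ⟨_, congrArg QuotientGroup.mk (S.tb_inj ((b4 0 (by norm_num)).trans (t0.trans h2.symm)))⟩
  have hb : (b : Spor.Ru) ∈ σ.range := ⟨_, congrArg QuotientGroup.mk (S.tb_inj ((b4 1 (by norm_num)).trans (t1.trans h3.symm)))⟩
  refine MG.cover_base b1 b2 b3 (σ := σ) (MonoidHom.range_eq_top.1 (eq_top_iff.2 (M.cl.ge.trans
    (TS.cl_le (List.forall_mem_cons.2 ⟨⟨_, ha, h4⟩, List.forall_mem_singleton.2 ⟨_, hb, h5⟩⟩)))))
    (eq_bot_iff.2 fun z hz => MG.eq_one_of_cenT Ru.cen M.mem fun t _ => Subgroup.mem_center_iff.1 hz _) (by norm_num) M.card c1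
    (by decide +kernel) (tq ▸ cz) perf fun hN => hasTrivial_of_list hN [2, 3, 5] [7, 13, 29] (by
      simpa using ⟨MG.ns_tb b1 b2 cd2 (tq ▸ d2low) fun a b => d2ns a b (by rw [hN]; norm_num),
        MG.ns_tb b1 b2 cd3 (tq ▸ d3low) fun a b => d3ns a b (by rw [hN]; norm_num),
        MG.ns_tb b1 b2 cd5 (tq ▸ d5low) fun a b => d5ns a b (by rw [hN]; norm_num)⟩) 15 (by decide +kernel)

end H27.CovRu
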