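import Cfsg.Agent.H27.MG3
import Cfsg.Agent.H27.Cov

/-!
Covers inside a group with a known base (namespace `H27.MG`): `tabs`, `ssF`, `ns_tb`, `exists_sub`, `cover_base`.
-/

set_option autoImplicit false

namespace H27.MG
open H13 H14.PK H14.PK.TS H14.RK H27.PKx Cfsg

/-- the tables of the first letters -/
noncomputable def tabs (W m : ℕ) (nets : List Net) (k : ℕ) : List ℕ := (List.range k).map fun i => tabW W m nets [i]



/-- the suffixes at the multiples of `64` -/
noncomputable def sfx {α : Type} (T : List α) (j : ℕ) : List α := Nat.rec T (fun _ ih => drp (nat_lit 64) ih) j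

theorem sfx_eq {α : Type} (T : List α) (j : ℕ) : sfx T j = T.drop (64 * j) := by
  induction j with
  | zero => rfl
  | succ j ih => exact (drp_eq 64 (sfx T j)).trans (by rw [ih, List.drop_drop, Nat.mul_succ])

/-- lookup in two steps -/
noncomputable def lk (T : List (List ℕ)) (i : ℕ) : List ℕ :=
  force (Nat.div i (nat_lit 64)) fun j => force (Nat.mod i (nat_lit 64)) fun r => nd [] (sfx T j) r

theorem lk_eq (T : List (List ℕ)) (i : ℕ) : lk T i = nd [] T i := by
  rw [lk, force_eq, force_eq, sfx_eq, nd_eq, nd_eq, List.getD_eq_getElem?_getD, List.getD_eq_getElem?_getD, List.getElem?_drop]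
  exact congrArg (fun j => T[j]?.getD []) (Nat.div_add_mod i 64)

/-- the relations of one generator -/
noncomputable def colF (a : ℕ) (T : List (List ℕ)) (R : RL) (ts : List (List ℕ)) : List (ℕ × List ℕ) → RL :=
  List.rec (fun _ => R) (fun t _ ih cs => List.rec ((a :: t, []) :: ih [])
    (fun c cs _ => (a :: t, apd (lk T c.1) c.2) :: ih cs) cs) ts

/-- the relations of some generators -/
noncomputable def genF (T : List (List ℕ)) (R : RL) (gs : List ℕ) : List (List (ℕ × List ℕ)) → RL :=
  List.rec (fun _ => R) (fun a _ ih css => List.rec (colF a T (ih []) T []) (fun cs css _ => colF a T (ih css) T cs) css) gs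

/-- the relations of a certificate -/
noncomputable def ssF (lv : List SL) : RL := List.rec [] (fun l _ ih => defE l.ds (genF l.ts ih l.gs l.cs)) lv

theorem ssF_eq (lv : List SL) : ssF lv = ssE lv := by
  unfold ssF ssE genF genE colF colE
  simp only [lk_eq]

/-- the listed tables are the tables of the networks -/
noncomputable def tqF (W m : ℕ) (nets : List Net) (L : List ℕ) (i : ℕ) : Bool :=
  band (Net.ok W m (nth nets i)) (Nat.beq (nd (nat_lit 0) L i) (tabW W m nets [i]))

theorem tabs_eq {W m k : ℕ} {nets : List Net} {L : List ℕ} (h : L.length = k) (e : ∀ i < k, tqF W m nets L i = true) :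
    tabs W m nets k = L := by
  refine List.ext_getElem (by simp [tabs, h]) fun i h1 h2 => ?_
  have := Nat.eq_of_beq_eq_true (band_eq_true.1 (e i (h ▸ h2))).2
  rw [nd_eq, List.getD_eq_getElem _ _ h2] at this
  simp [tabs, this]

theorem nets_ok {W m k : ℕ} {nets : List Net} {L : List ℕ} (h : nets.length = k) (e : ∀ i < k, tqF W m nets L i = true) :
    allL (Net.ok W m) nets = true := allL_iff.2 fun N hN => by
  obtain ⟨i, hi, rfl⟩ := List.getElem_of_mem hN
  have := (band_eq_true.1 (e i (h ▸ hi))).1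
  rwa [nth_eq, List.getD_eq_getElem _ _ hi] at this

/-- lower bound for the group of a polycyclic presentation -/
noncomputable def pcL (W m a : ℕ) (P : H15.PC) (lv : Ch) (L : List ℕ) : Bool :=
  band (allL (fun l => allL (fun i => band (Nat.ble a i) (Nat.blt i (a + P.n))) l.2) lv)
    (band (Nat.blt 0 (P.p ^ P.n)) (Nat.beq (lowN W m (selC W m L lv) []) (P.p ^ P.n)))

theorem ns_tb {G : Type*} [Group G] {W m k : ℕ} {nets : List Net} {S : TS G W m} {bs : List ℕ} (hb : S.Base bs)
    (h : ∀ t ∈ tabs W m nets k, S.In ⊤ t) {P : H15.PC} {a : ℕ} (R : Chk (fB W m bs (tabs W m nets k)) (shE a (pcE P))) {lv : Ch}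
    (e : pcL W m a P lv (tabs W m nets k) = true) {Q : Prop} (ns : H15.PcRel P (fun i => gT S (tabs W m nets k) (a + i)) →
      P.p ^ P.n ≤ Nat.card (Subgroup.closure ((fun i => gT S (tabs W m nets k) (a + i)) '' Set.Iio P.n)) → Q) : Q := by
  simp only [pcL, band_eq_true, Nat.blt_eq, Nat.beq_eq, allL_iff, Nat.ble_eq] at e
  obtain ⟨e1, e2, e3⟩ := e
  refine ns (R.rel (sndB hb h)).sh.pcRel ?_
  obtain ⟨ch, b1, b2, -⟩ := low_orb (S := S) (K := Subgroup.closure ((fun i => gT S (tabs W m nets k) (a + i)) '' Set.Iio P.n))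
    (lv := selC W m (tabs W m nets k) lv) (by
      clear e3
      induction lv with
      | nil => simp [selC]
      | cons l lv ih =>
        obtain ⟨x, y⟩ := List.forall_mem_cons.1 e1
        refine List.forall_mem_cons.2 ⟨?_, ih y⟩
        generalize l.2 = u at x
        induction u with
        | nil => simp [sel]
        | cons i u ih =>
          obtain ⟨x, y⟩ := List.forall_mem_cons.1 x
          exact List.forall_mem_cons.2 ⟨(in_nd h i).of_el (Subgroup.subset_closure ⟨i - a, by simp only [Set.mem_Iio]; omega,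
            by simp only [Nat.add_sub_cancel' x.1, gT]⟩), ih y⟩) (by omega)
  exact e3 ▸ b2 ▸ b1.le_card

theorem exists_sub {W m : ℕ} [NeZero m] {nets : List Net} {h : ℕ → Equiv.Perm (Fin m)} (Y : Sys (finPts m) W h nets)
    {F : Type*} [Group F] {S : TS F W m} {bs : List ℕ} (hb : S.Base bs) {gs : List ℕ} (hg : ∀ l ∈ gs, S.In ⊤ (tabW W m nets [l]))
    {k : ℕ} (hM : ∀ l < k, h l ∈ cl h gs) (hk : ∀ l ∈ gs, l < k) : ∃ (φ : cl h gs →* F) (S' : TS (cl h gs) W m), S'.Base bs ∧
      (∀ t ∈ tabs W m nets k, S'.In ⊤ t) ∧ cl (gT S' (tabs W m nets k)) gs = ⊤ ∧ Function.Injective φ ∧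
      ∀ l < k, S.tb (φ (gT S' (tabs W m nets k) l)) = tabW W m nets [l] := by
  have a0 : ∀ l, (SP W m S.hw S.hn).tb (h l) = tabW W m nets [l] := fun l => by simpa using tb_tabW Y [l]
  have a1 : cl h gs ≤ (toP S).range := H14.RK.cl_le fun l hl => by
    obtain ⟨g, -, e⟩ := hg l hl
    exact ⟨g, (SP W m S.hw S.hn).tb_inj (by rw [tb_toP, e, a0])⟩
  let φ : cl h gs →* F := (MonoidHom.ofInjective (toP_inj S)).symm.toMonoidHom.comp (Subgroup.inclusion a1)
  have a2 : Function.Injective φ := (MonoidHom.ofInjective (toP_inj S)).symm.injective.comp (Subgroup.inclusion_injective a1)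
  have a3 : ∀ x, toP S (φ x) = x := fun x => MonoidHom.apply_ofInjective_symm (toP_inj S) _
  have a4 : ∀ l (hl : l < k), (S.comap φ a2).tb ⟨h l, hM l hl⟩ = tabW W m nets [l] := fun l hl =>
    (tb_toP S _).symm.trans (by rw [a3, a0])
  have a5 : ∀ l (hl : l < k), gT (S.comap φ a2) (tabs W m nets k) l = ⟨h l, hM l hl⟩ := fun l hl => by
    rw [gT, nd_eq, tabs, List.getD_eq_getElem _ _ (by simpa), List.getElem_map, List.getElem_range, ← a4 l hl, el_tb]
  refine ⟨φ, S.comap φ a2, ⟨hb.1, fun g e => a2 ((hb.2 _ e).trans (map_one φ).symm)⟩, List.forall_mem_map.2 fun l hl =>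
    ⟨_, trivial, a4 l (List.mem_range.1 hl)⟩, ?_, a2, fun l hl => by rw [a5 l hl]; exact a4 l hl⟩
  rw [← closure_res gs]
  exact congrArg Subgroup.closure (Set.image_congr fun l hl => (a5 l (hk l hl)).trans (Subtype.ext (coe_res (mem_cl l hl)).symm))

/-- the conditions on a central word of prime order -/
noncomputable def zL (W m : ℕ) (bs gs z : List ℕ) (p b : ℕ) (L : List ℕ) : Bool :=
  band (band (fB W m bs L (H15.pw z p) []) (allL (fun g => fB W m bs L (g :: z) (apd z [g])) gs))
    (band (Nat.blt b m) (bn (Nat.beq (apT W m L z b) b)))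

theorem cover_base {E : Type} {G : Type*} [Group E] [Group G] {W m k : ℕ} {nets : List Net} {S : TS E W m} {bs : List ℕ}
    (hb : S.Base bs) (h : ∀ t ∈ tabs W m nets k, S.In ⊤ t) {lv : List SL} (hg : cl (gT S (tabs W m nets k)) (gsOf lv) = ⊤)
    {σ : E →* G} (hs : Function.Surjective σ) (hZ : Subgroup.center G = ⊥) {N p : ℕ} (hp : p.Prime) (hN : Nat.card G = N)
    (R : Chk (fB W m bs (tabs W m nets k)) (ssE lv)) (e : band (ssOk lv) (Nat.beq (ssN lv) (p * N)) = true) {z : List ℕ} {b : ℕ}
    (e' : zL W m bs (gsOf lv) z p b (tabs W m nets k) = true) (hc : commutator E = ⊤)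
    (ns : Nat.card E = p * N → HasCyclicSchurMultiplier E 1) : HasCyclicSchurMultiplier G p := by
  have := S.finite
  have : NeZero p := ⟨hp.ne_zero⟩
  have : Unique (ZMod 1) := inferInstanceAs (Unique (Fin 1))
  have sn := sndB hb h

  obtain ⟨e1, e2⟩ := band_eq_true.1 e'
  obtain ⟨e1, e3⟩ := band_eq_true.1 e1
  have a1 := sn _ _ e1
  rw [H15.evalW_pw, evalW_nil] at a1
  have a2 : evalW (gT S (tabs W m nets k)) z ∈ Subgroup.center E := Subgroup.mem_center_iff.2 fun g =>
    Subgroup.mem_centralizer_singleton_iff.1 (H14.RK.cl_le (K := Subgroup.centralizer {evalW (gT S (tabs W m nets k)) z})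
      (fun i hi => by simpa [apd_eq, evalW_append, Subgroup.mem_centralizer_singleton_iff] using sn _ _ (allL_iff.1 e3 i hi))
      (hg.ge trivial))
  have a3 : σ (evalW (gT S (tabs W m nets k)) z) = 1 := Subgroup.mem_bot.1 (hZ ▸ Subgroup.mem_center_iff.2 fun g => by
    obtain ⟨x, rfl⟩ := hs g
    rw [← map_mul, ← map_mul, Subgroup.mem_center_iff.1 a2])
  have a4 := (ss_card (R.rel sn) (band_eq_true.1 e).1).2
  rw [hg, Subgroup.card_top, Nat.eq_of_beq_eq_true (band_eq_true.1 e).2] at a4
  have := Fact.mk hp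
  have a5 := orderOf_eq_prime a1 (neT h e2)
  exact H16.hsm_congr (H16.hsm_congr (B := Multiplicative (ZMod p × ZMod 1)) (mult_of_three (q := 1) (r := 1) hs hN ⟨⟨a3, a2⟩, a1⟩ ⟨one_mem _, one_pow _⟩ ⟨one_mem _, one_pow _⟩
    (fun i hi j hj l hl c => by
      have := Nat.eq_zero_of_dvd_of_lt (a5 ▸ orderOf_dvd_of_pow_eq_one (by simpa using c)) hi
      omega) (by simpa using a4) hc (by simpa using ns))
    (AddEquiv.toMultiplicative (AddEquiv.prodCongr (AddEquiv.refl _) AddEquiv.prodUnique)))
    (AddEquiv.toMultiplicative AddEquiv.prodUnique)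

end H27.MG
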