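import Cfsg.Agent.H27.CovRuD1

/-! The double cover of the Rudvalis group. Checks. -/

set_option maxRecDepth 100000
set_option Elab.async false

namespace H27.CovRu

open Cfsg H13 H15 H14.PK H14.RK

theorem c1_14 : relOk (fB 16 16240 Ru.bs tbs) (MG.ssF lv) (nat_lit 12522) (nat_lit 1399) = true := by decide +kernel

theorem c1_1 : relOk (fB 16 16240 Ru.bs tbs) (MG.ssF lv) (nat_lit 1075) (nat_lit 798) = true := by decide +kernel

theorem c1_10 : relOk (fB 16 16240 Ru.bs tbs) (MG.ssF lv) (nat_lit 8410) (nat_lit 1047) = true := by decide +kernel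

theorem c1_12 : relOk (fB 16 16240 Ru.bs tbs) (MG.ssF lv) (nat_lit 10399) (nat_lit 1160) = true := by decide +kernel

theorem c1_3 : relOk (fB 16 16240 Ru.bs tbs) (MG.ssF lv) (nat_lit 2655) (nat_lit 746) = true := by decide +kernel

theorem c2_0 : relOk (fN 16 16240 nets) (defE ds []) (nat_lit 0) (nat_lit 21) = true := by decide +kernel

theorem c2_4 : relOk (fN 16 16240 nets) (defE ds []) (nat_lit 49) (nat_lit 2) = true := by decide +kernel

theorem tq_1 : rng (MG.tqF 16 16240 nets tbs) (nat_lit 11) (nat_lit 11) = true := by decide +kernel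

theorem tq_4 : rng (MG.tqF 16 16240 nets tbs) (nat_lit 44) (nat_lit 9) = true := by decide +kernel

theorem d5low : MG.pcL 16 16240 49 d5D [(nat_lit 6892, [nat_lit 49]), (nat_lit 0, [nat_lit 50, nat_lit 51])] tbs = true := by decide +kernel

theorem cd2_0 : relOk (fB 16 16240 Ru.bs tbs) (shE 28 (pcE d2D)) (nat_lit 0) (nat_lit 141) = true := by decide +kernel

theorem cz : MG.zL 16 16240 Ru.bs (gsOf lv) [27] 2 0 tbs = true := by decide +kernel

theorem d3c_0 : rng (fun i => cnOk d3D (nthD (.con [] 0 0, 0) d3cs i)) (nat_lit 0) (nat_lit 5) = true := by decide +kernel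

theorem d2ok : d2D.ok = true := by decide +kernel

theorem d2h3 : band (Nat.ble d2cs.length d2D.fuel) (allL (fun f => force (d2D.wd f) (bdOk d2D.b d2D.N d2D.t)) d2Fs) = true := by decide +kernel

theorem d3h3 : band (Nat.ble d3cs.length d3D.fuel) (allL (fun f => force (d3D.wd f) (bdOk d3D.b d3D.N d3D.t)) d3Fs) = true := by decide +kernel

theorem d5h3 : band (Nat.ble d5cs.length d5D.fuel) (allL (fun f => force (d5D.wd f) (bdOk d5D.b d5D.N d5D.t)) d5Fs) = true := by decide +kernel

end H27.CovRu
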