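import Cfsg.Agent.H13.Xs

/-! Tables with a base up to a subgroup, derived series of normalisers of cyclic groups, growing sets of points. -/

namespace H27.F23

open H13 Subgroup MulAction
open scoped commutatorElement

variable {G α : Type*} [Group G] [MulAction G α]

/-- tables for the letters; whatever fixes the points `bs` lies in `Z` -/
structure Wm (m : ℕ) (ev : ℕ → ℕ → ℕ) (bs : List ℕ) (Z : Subgroup G) (gen : ℕ → G) (pt : ℕ → α) : Prop where
  inj : ∀ i < m, ∀ j < m, pt i = pt j → i = j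
  evl : Ev ⟨m, pt, inj⟩ gen ev
  lt : ∀ b ∈ bs, b < m
  base : ∀ g : G, (∀ b ∈ bs, g • pt b = pt b) → g ∈ Z

namespace Wm

variable {m : ℕ} {ev : ℕ → ℕ → ℕ} {bs : List ℕ} {Z : Subgroup G} {gen : ℕ → G} {pt : ℕ → α} (S : Wm m ev bs Z gen pt)
include S

theorem eq {u v : List ℕ} (h : eqB ev bs [(u, v)] = true) : (evalW gen v)⁻¹ * evalW gen u ∈ Z :=
  S.base _ fun b hb => by
    have e : evW ev u b = evW ev v b := Nat.eq_of_beq_eq_true (allL_iff.1 (allL_iff.1 h _ List.mem_cons_self) b hb)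
    have p : evalW gen u • pt b = pt (evW ev u b) := (S.evl.rep u b (S.lt b hb)).2
    have q : evalW gen v • pt b = pt (evW ev v b) := (S.evl.rep v b (S.lt b hb)).2
    rw [mul_smul, p, e, ← q, inv_smul_smul]

theorem sub {ws : List (List ℕ)} {m' c : ℕ} {Ts bs' : List ℕ} {ρ : ℕ → ℕ} (h1 : incB ρ m' m = true) (h2 : Ts.length = ws.length)
    (h3 : ∀ l < ws.length, tblOk ev ws m' (evS c Ts) ρ l = true) (h4 : bs'.map ρ = bs) (h5 : ∀ b ∈ bs', b < m') :
    Wm m' (evS c Ts) bs' Z (H13.genW gen ws) fun j => pt (ρ j) := by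
  have lt : ∀ i < m', ρ i < m := fun i hi => (inc_lt h1 _ le_rfl i hi).trans_le (Nat.ble_eq.mp (band_eq_true.1 h1).1)
  refine ⟨fun i hi j hj q => ?_, fun l i hi => ?_, h5, fun g q => S.base g fun b hb => ?_⟩
  · have := S.inj _ (lt i hi) _ (lt j hj) q
    rcases lt_trichotomy i j with h | h | h
    exacts [absurd this (inc_lt h1 j hj.le i h).ne, h, absurd this (inc_lt h1 i hi.le j h).ne']
  · rcases Nat.lt_or_ge l ws.length with hl | hl
    · have := allLt_iff.1 (h3 l hl) i hi
      simp only [force_eq, band_eq_true, Nat.blt_eq, Nat.beq_eq] at this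
      exact ⟨this.1, ((S.evl.genW ws l) _ (lt i hi)).2.trans (congrArg pt this.2)⟩
    · rw [evS_of_le (h2 ▸ hl), genW_of_le hl]; exact ⟨hi, one_smul _ _⟩
  · obtain ⟨b', hb', rfl⟩ := List.mem_map.1 (h4 ▸ hb)
    exact q b' hb'

end Wm

/-- the terms of the derived series as subgroups of the big group -/
def Dk (H : Subgroup G) (k : ℕ) : Subgroup G := (derivedSeries H k).map H.subtype

theorem Dk_zero (H : Subgroup G) : Dk H 0 = H := by simp [Dk, ← MonoidHom.range_eq_map]

theorem Dk_succ (H : Subgroup G) (k : ℕ) : Dk H (k + 1) = ⁅Dk H k, Dk H k⁆ := by rw [Dk, derivedSeries_succ, map_commutator]; rfl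

theorem Dk_le (H : Subgroup G) (k : ℕ) : Dk H k ≤ H := map_subtype_le _

theorem cm_mul (a u b v : G) : ⁅a * u, b * v⁆ = a * (u * b * u⁻¹) * ⁅u, v⁆ * (v * a⁻¹ * v⁻¹) * b⁻¹ := by
  simp only [commutatorElement_def]; group

theorem zp_cm {t u v : G} (hu : u ∈ zpowers t) (hv : v ∈ zpowers t) : ⁅u, v⁆ = 1 := by
  obtain ⟨i, rfl⟩ := hu
  obtain ⟨j, rfl⟩ := hv
  exact commutatorElement_eq_one_iff_commute.2 (Commute.zpow_zpow_self t i j)

theorem tl_step [Finite G] {g : ℕ → G} {n k : ℕ} (h : ∀ j, k < j → j < n → (g k)⁻¹ * g j * g k ∈ tl g n (k + 1)) :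
    ⁅tl g n k, tl g n k⁆ ≤ tl g n (k + 1) := by
  have a : tl g n k ≤ tl g n (k + 1) ⊔ zpowers (g k) := tl_le fun j p q =>
    p.eq_or_lt.elim (fun e => e ▸ mem_sup_right (mem_zpowers _)) fun p => mem_sup_left (mem_tl p q)
  have b : (g k)⁻¹ ∈ normalizer (tl g n (k + 1) : Set G) :=
    mem_norm_cl (by rintro _ ⟨j, hj, rfl⟩; rw [inv_inv]; exact h j hj.1 hj.2)
  have c : zpowers (g k) ≤ normalizer (tl g n (k + 1) : Set G) := zpowers_le.2 (inv_mem_iff.1 b)
  refine commutator_le.2 fun x hx y hy => ?_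
  obtain ⟨p, hp, u, hu, rfl⟩ := mem_sup_norm c (a hx)
  obtain ⟨q, hq, v, hv, rfl⟩ := mem_sup_norm c (a hy)
  rw [cm_mul, zp_cm hu hv, mul_one]
  exact mul_mem (mul_mem (mul_mem hp ((mem_normalizer_iff.1 (c hu) _).1 hq)) ((mem_normalizer_iff.1 (c hv) _).1 (inv_mem hp))) (inv_mem hq)

theorem cm_norm {z g h : G} (hg : g ∈ normalizer (zpowers z : Set G)) (hh : h ∈ normalizer (zpowers z : Set G)) : Commute ⁅g, h⁆ z := by
  obtain ⟨a, ea⟩ := (mem_normalizer_iff.1 (inv_mem hg) z).1 (mem_zpowers z)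
  obtain ⟨b, eb⟩ := (mem_normalizer_iff.1 (inv_mem hh) z).1 (mem_zpowers z)
  simp only at ea eb
  have k : ∀ {g h : G} {a b : ℤ}, z ^ a = g⁻¹ * z * g⁻¹⁻¹ → z ^ b = h⁻¹ * z * h⁻¹⁻¹ → (g * h)⁻¹ * z * (g * h) = z ^ (b * a) := by
    intro g h a b ea eb
    rw [zpow_mul, eb, conj_zpow, ea]; group
  have e := (k ea eb).trans ((mul_comm a b ▸ k eb ea).symm)
  have : ⁅g, h⁆ * z = (g * h) * ((h * g)⁻¹ * z * (h * g)) * (h * g)⁻¹ := by simp only [commutatorElement_def]; group
  rw [Commute, SemiconjBy, this, ← e, commutatorElement_def]; group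

theorem cm_Dk {z x y : G} (k : ℕ) (hx : x ∈ Dk (normalizer (zpowers z : Set G)) k ⊔ zpowers z)
    (hy : y ∈ Dk (normalizer (zpowers z : Set G)) k ⊔ zpowers z) : ⁅x, y⁆ ∈ Dk (normalizer (zpowers z : Set G)) (k + 1) := by
  rw [Dk_succ]
  cases k with
  | zero =>
    rw [Dk_zero] at *
    rw [sup_eq_left.2 le_normalizer] at hx hy
    exact commutator_mem_commutator hx hy
  | succ k =>
    have a : ∀ p ∈ Dk (normalizer (zpowers z : Set G)) (k + 1), ∀ u ∈ zpowers z, p * u = u * p := fun p hp u hu => by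
      obtain ⟨i, rfl⟩ := hu
      have : Dk (normalizer (zpowers z : Set G)) (k + 1) ≤ centralizer {z} := by
        rw [Dk_succ]
        exact commutator_le.2 fun g hg h hh => mem_centralizer_singleton_iff.2 (cm_norm (Dk_le _ _ hg) (Dk_le _ _ hh))
      exact Commute.zpow_right (mem_centralizer_singleton_iff.1 (this hp)) i
    obtain ⟨p, hp, u, hu, rfl⟩ := mem_sup_norm (le_norm_of_comm a) hx
    obtain ⟨q, hq, v, hv, rfl⟩ := mem_sup_norm (le_norm_of_comm a) hy
    rw [cm_mul, zp_cm hu hv, mul_one, ← a q hq u hu, ← a _ (inv_mem hp) v hv, mul_inv_cancel_right, mul_inv_cancel_right]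
    exact commutator_mem_commutator hp hq

/-- the conjugation relations -/
noncomputable def relOk (ev : ℕ → ℕ → ℕ) (bs : List ℕ) (n : ℕ) (R : List (List ℕ)) (k : ℕ) : Bool :=
  forceW (nthW R k) fun r => allLt (fun j => bor (Nat.ble j k) (forceW (unW (nthN r j)) fun w =>
    band (inB (Nat.succ k) (Nat.succ n) w) (eqB ev bs [([j, k], k :: w)]))) (Nat.succ n)

/-- the letter is a commutator of words of the level above -/
noncomputable def cmOk (ev : ℕ → ℕ → ℕ) (bs : List ℕ) (n : ℕ) (lv : ℕ → ℕ) (A B : List ℕ) (j : ℕ) : Bool :=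
  bor (Nat.beq (lv j) 0) (forceW (unW (nthN A j)) fun a => forceW (unW (nthN B j)) fun b =>
    band (allL (fun x => band (Nat.ble x n) (Nat.ble (lv j) (Nat.succ (lv x)))) (a ++ b)) (eqB ev bs [(j :: (b ++ a), a ++ b)]))

theorem Wm.der [Finite G] {m n : ℕ} {ev : ℕ → ℕ → ℕ} {bs : List ℕ} {z : G} {g : ℕ → G} {pt : ℕ → α} (S : Wm m ev bs (zpowers z) g pt)
    {lv : ℕ → ℕ} {R : List (List ℕ)} {A B : List ℕ} (hg : ∀ j, g j ∈ normalizer (zpowers z : Set G)) (hz : g n = z)
    (hH : normalizer (zpowers z : Set G) ≤ tl g (n + 1) 0) (h1 : allLt (relOk ev bs n R) n = true) (h2 : allLt (cmOk ev bs n lv A B) n = true)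
    {a b d : ℕ} (ha : a ≤ n ∧ d ≤ lv a) (hb : b ≤ n ∧ d ≤ lv b) (ne : g a * g b ≠ g b * g a) :
    derivedSeries (normalizer (zpowers z : Set G)) (d + 2) ≠ derivedSeries (normalizer (zpowers z : Set G)) (d + 1) := fun e => by
  simp only [allLt_iff, relOk, cmOk, forceW_eq, band_eq_true, bor_eq_true, Nat.ble_eq, Nat.beq_eq, allL_iff] at h1 h2
  have up : ∀ k, Dk (normalizer (zpowers z : Set G)) k ≤ tl g (n + 1) k := fun k => by
    induction k with
    | zero => rwa [Dk_zero]
    | succ k ih =>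
      rw [Dk_succ]
      refine (commutator_mono ih ih).trans (tl_step fun j p q => ?_)
      obtain ⟨r, s⟩ := (h1 k (by omega) j q).resolve_left (by omega)
      have := mul_mem (evalW_mem_tl (g := g) r) (zpowers_le.2 (hz ▸ mem_tl (g := g) (n := n + 1) (k := k + 1) (j := n) (by omega) (by omega)) (S.eq s))
      simpa [mul_assoc] using this
  have lo : ∀ k, ∀ j ≤ n, k ≤ lv j → g j ∈ Dk (normalizer (zpowers z : Set G)) k ⊔ zpowers z := fun k => by
    induction k with
    | zero => exact fun j _ _ => mem_sup_left (by rw [Dk_zero]; exact hg j)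
    | succ k ih =>
      intro j p q
      rcases p.eq_or_lt with rfl | p
      · exact mem_sup_right (hz ▸ mem_zpowers _)
      obtain ⟨r, s⟩ := (h2 j p).resolve_left (by omega)
      generalize unW (nthN A j) = u at r s
      generalize unW (nthN B j) = v at r s
      have t := S.eq s
      have hu := evalW_mem (gen := g) fun x (hx : x ∈ u) => ih x (r x (List.mem_append_left _ hx)).1
        (by have := (r x (List.mem_append_left _ hx)).2; omega)
      have hv := evalW_mem (gen := g) fun x (hx : x ∈ v) => ih x (r x (List.mem_append_right _ hx)).1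
        (by have := (r x (List.mem_append_right _ hx)).2; omega)
      have := mul_mem (mem_sup_left (cm_Dk k hu hv)) (mem_sup_right ((mem_normalizer_iff.1 (evalW_mem (gen := g) (u := v ++ u) fun x _ => hg x) _).1 t))
      convert this using 1
      simp only [evalW_cons, evalW_append, commutatorElement_def]; group
  have st : ∀ k, Dk (normalizer (zpowers z : Set G)) (d + 1 + k) = Dk (normalizer (zpowers z : Set G)) (d + 1) := fun k => by
    induction k with
    | zero => rfl
    | succ k ih => rw [← add_assoc, Dk_succ, ih, ← Dk_succ, Dk, e]; rfl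
  have := (tl_mono g (n + 1) (by omega : n + 1 ≤ d + 1 + (n + 1))) (up _ (st (n + 1) ▸ cm_Dk d (lo d a ha.1 ha.2) (lo d b hb.1 hb.2)))
  rw [tl_self, mem_bot] at this
  exact ne (commutatorElement_eq_one_iff_mul_comm.1 this)

/-- add the points that the words move into the set -/
noncomputable def grow (nets : List Net) (us : List (List ℕ)) (is : List ℕ) : ℕ → ℕ :=
  List.rec (fun X => X) (fun i _ ih X => force (Nat.lor X (apW nets (nthW us i) X)) ih) is

theorem genW_mem (gen : ℕ → G) (us : List (List ℕ)) (l : ℕ) : genW gen us l ∈ clW gen us := by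
  simpa using clW_genW_le (gen := gen) (ws := us) (us := [[l]]) le_rfl (evalW_mem_clW List.mem_cons_self)

variable {n K N : ℕ} {nets : List Net} {ev : ℕ → ℕ → ℕ} {dw bs : List ℕ} {D : Set G} {gen e : ℕ → G}

theorem bit (M : Mo n K N nets ev dw bs D gen) (u : List ℕ) (x : ℕ) {i : ℕ} (hi : i < n) :
    (apW nets u x).testBit i = x.testBit (evW ev u i) := by
  obtain ⟨_, _, _, _, A⟩ := M.ex
  rw [A.sys.testBit_apW u x hi, (A.evl.rep u).ix hi]

theorem mv (E : Mt n K ev dw bs D gen e) {L : Subgroup G} {u : List ℕ} (hu : evalW gen u ∈ L) {i : ℕ} (hi : i < n) :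
    evW ev u i < n ∧ (e (evW ev u i) ∈ L ↔ e i ∈ L) :=
  ⟨(E.sm.act u hi).1, by rw [← tc_smul.1 (E.sm.act u hi).2, mul_mem_cancel_right (inv_mem hu), mul_mem_cancel_left hu]⟩

theorem grow_spec (M : Mo n K N nets ev dw bs D gen) (E : Mt n K ev dw bs D gen e) {L : Subgroup G} {us : List (List ℕ)}
    (hL : clW gen us ≤ L) {P : Prop} (is : List ℕ) {X : ℕ} (hX : ∀ i < n, X.testBit i = true → (e i ∈ L ↔ P)) :
    ∀ i < n, (grow nets us is X).testBit i = true → (e i ∈ L ↔ P) := by
  induction is generalizing X with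
  | nil => exact hX
  | cons l is ih =>
    have : grow nets us (l :: is) X = grow nets us is (X ||| apW nets (nthW us l) X) := force_eq _ _
    rw [this]
    refine ih fun i hi h => ?_
    rw [Nat.testBit_or, Bool.or_eq_true, bit M _ _ hi] at h
    have a := mv E (hL (genW_eq gen us l ▸ genW_mem gen us l)) hi
    exact h.elim (hX i hi) fun h => a.2.symm.trans (hX _ a.1 h)

theorem grow_pt (M : Mo n K N nets ev dw bs D gen) (E : Mt n K ev dw bs D gen e) {L : Subgroup G} {us : List (List ℕ)}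
    (hL : clW gen us ≤ L) (is : List ℕ) (r : ℕ) : ∀ i < n, (grow nets us is (p2 r)).testBit i = true → (e i ∈ L ↔ e r ∈ L) :=
  grow_spec M E hL is fun i _ h => by rw [p2_eq, Nat.testBit_two_pow, decide_eq_true_eq] at h; rw [h]

/-- the model as a model with a weak base -/
theorem wm_of (M : Mo n K N nets ev dw bs D gen) (E : Mt n K ev dw bs D gen e) {B : List (ℕ × List ℕ)} {X U : List (List ℕ)}
    (h1 : allL (fun p => band (Nat.blt p.1 n) (Nat.beq (evR ev p.2 p.1) 0)) B = true)
    (h2 : allL (fun x => anyL (fun u => eqB ev bs [(x, subW (B.map fun p => cjW dw p.2) u)]) U) X = true) :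
    Wm n ev (B.map Prod.fst) (cenW gen X) gen fun i => tc (e i) := by
  simp only [allL_iff, anyL_iff, band_eq_true, Nat.blt_eq, Nat.beq_eq] at h1 h2
  refine ⟨E.sm.inj, E.sm.evl, fun b hb => ?_, fun g hg => mem_cenW.2 fun x hx => ?_⟩
  · obtain ⟨p, hp, rfl⟩ := List.mem_map.1 hb
    exact (h1 p hp).1
  · obtain ⟨u, -, hu⟩ := h2 x hx
    rw [M.eq hu List.mem_cons_self, evalW_subW]
    refine commute_genW (fun w hw => ?_) u
    obtain ⟨p, hp, rfl⟩ := List.mem_map.1 hw
    rw [← E.wd _ _ (h1 p hp).1 (h1 p hp).2]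
    exact (tc_fix.1 (hg _ (List.mem_map_of_mem hp))).symm

theorem coatom [Finite G] [IsSimpleGroup G] (M : Mo n K N nets ev dw bs D gen) (E : Mt n K ev dw bs D gen e) {z : G} {B : List ℕ}
    (S : Wm n ev B (zpowers z) gen fun i => tc (e i)) (hB : ∀ b ∈ B, Commute z (e b)) (hd : evalW gen dw ≠ 1)
    (h0 : normalizer (zpowers z : Set G) ≠ ⊤)
    (h : ∀ L : Subgroup G, normalizer (zpowers z : Set G) ≤ L → ∀ i < n, e i ∈ L → ¬ Commute z (e i) → ∀ j < n, e j ∈ L) :
    IsCoatom (normalizer (zpowers z : Set G)) := by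
  refine ⟨h0, fun L hL => ?_⟩
  by_cases a : ∀ i < n, e i ∈ L → Commute z (e i)
  · refine absurd (fun k hk => ?_) hL.not_ge
    rw [zpowers_eq_closure]
    refine mem_norm_cl fun s hs => ?_
    rw [hs, ← zpowers_eq_closure]
    refine S.base _ fun b hb => tc_fix.2 ?_
    obtain ⟨i, hi, q⟩ := E.all _ (M.conj_mem (E.mem b (S.lt b hb)) k⁻¹)
    have m : e b ∈ L := hL.le (centralizer_le_normalizer _ (mem_cen_zpowers.2 (hB b hb).symm))
    have c := (a i hi (q ▸ mul_mem (mul_mem (inv_mem hk) m) (inv_mem (inv_mem hk)))).map (MulAut.conj k)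
    simpa [q, mul_assoc] using c
  · push Not at a
    obtain ⟨i, hi, p, q⟩ := a
    have : normalClosure {evalW gen dw} ≤ L := (closure_le _).2 fun x hx => by
      obtain ⟨j, hj, rfl⟩ := E.all x (by rw [M.cl]; simpa [Group.conjugatesOfSet] using hx)
      exact h L hL.le i hi p q j hj
    refine eq_top_iff.2 (((normalClosure_normal (s := {evalW gen dw})).eq_bot_or_eq_top.resolve_left fun b => hd ?_).ge.trans this)
    exact mem_bot.1 (b ▸ subset_normalClosure rfl)

end H27.F23
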