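import Cfsg.Agent.H27.Nrm

/-! Homomorphisms from relations checked on bases (namespace `H27.MG`): `homB`, `hom_ss`, `iso_ss`, `quot_ss`. -/

set_option autoImplicit false

namespace H27.MG
open H13 H14.PK H14.PK.TS H27.PKx
open H14.RK (SL gT gsOf ssE ssN fB)

variable {G H : Type*} [Group G] [Group H] {w n v m : ℕ} {S : TS G w n} {S' : TS H v m} {bs Ts Us Ns : List ℕ} {N M : ℕ}
  {lv : List SL} {pr pr' : List (List ℕ)} {lw lw' : Ch}

theorem base_range (S : TS G w n) : S.Base (List.range n) :=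
  ⟨fun _ => List.mem_range.1, fun g h => S.faith g fun i hi => h i (List.mem_range.2 hi)⟩

theorem cl_gT (gs : List ℕ) : S.cl (gs.map (nd (idv w n) Ts)) = H14.RK.cl (gT S Ts) gs := by
  rw [TS.cl, H14.RK.cl]
  congr 1
  ext x
  simp only [Set.mem_image, Set.mem_ofPred_eq, List.mem_map, exists_exists_and_eq_and, gT]

/-- check of the graph of a surjection -/
noncomputable def homB (w n v m N M : ℕ) (bs Ts Us : List ℕ) (lv : List SL) (pr pr' : List (List ℕ)) (lw lw' : Ch) : Bool :=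
  band (band (H14.RK.ssOk lv) (allL (fun e => band (fB w n bs Ts e.1 e.2) (fB v m (List.range m) Us e.1 e.2)) (ssE lv)))
    (band (Nat.beq (ssN lv) N) (band (lowOk w n N pr ((gsOf lv).map (nd (idv w n) Ts)) lw)
      (lowOk v m M pr' ((gsOf lv).map (nd (idv v m) Us)) lw')))

theorem hom_ss (hb : S.Base bs) (h : ∀ t ∈ Ts, S.In ⊤ t) (h' : ∀ t ∈ Us, S'.In ⊤ t) (hM : Nat.card H = M)
    (hN : (gsOf lv).map (nd (idv w n) Ts) = Ns) (e : homB w n v m N M bs Ts Us lv pr pr' lw lw' = true) :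
    Nat.card (S.cl Ns) = N ∧ ∃ φ : S.cl Ns →* H, φ.range = ⊤ ∧ ∀ i ∈ gsOf lv, ∀ a, φ ⟨gn S Ts i, a⟩ = gn S' Us i := by
  have := S.finite
  have := S'.finite
  subst hN
  simp only [homB, band_eq_true, allL_iff, Nat.beq_eq] at e
  obtain ⟨⟨e1, e2⟩, e3, e4, e5⟩ := e
  have c := (H14.RK.ss_card (g := fun i => (gT S Ts i, gT S' Us i)) (fun r hr => by
    rw [H14.RK.evalW_prod, H14.RK.evalW_prod, H14.RK.sndB hb h _ _ (e2 r hr).1,
      H14.RK.sndB (base_range S') h' _ _ (e2 r hr).2]) e1).2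
  have l := le_of_ok (K := S.cl ((gsOf lv).map (nd (idv w n) Ts))) e4 fun t ht =>
    (List.forall_mem_map.2 (fun i _ => nd_prop In.one h i) t ht).cl ht
  have k : (H14.RK.cl (fun i => (gT S Ts i, gT S' Us i)) (gsOf lv)).map (MonoidHom.fst G H) =
      S.cl ((gsOf lv).map (nd (idv w n) Ts)) := by
    rw [cl_gT, H14.RK.cl, H14.RK.cl, MonoidHom.map_closure, Set.image_image]; rfl
  obtain ⟨φ, a, b⟩ := exists_hom_of_graph _ k (c.trans (e3.le.trans l))
  refine ⟨le_antisymm (k ▸ (Nat.le_of_dvd Nat.card_pos (Subgroup.card_map_dvd _ _)).trans (c.trans e3.le)) l, φ, ?_,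
    fun i hi => b (_, _) (H14.RK.mem_cl (g := fun i => (gT S Ts i, gT S' Us i)) i hi)⟩
  refine Subgroup.eq_top_of_le_card _ (hM ▸ le_of_ok e5 (List.forall_mem_map.2 fun i hi => (nd_prop In.one h' i).of_el ?_))
  exact a ▸ ⟨_, H14.RK.mem_cl (g := fun i => (gT S Ts i, gT S' Us i)) i hi, rfl⟩

theorem iso_ss (hb : S.Base bs) (h : ∀ t ∈ Ts, S.In ⊤ t) (h' : ∀ t ∈ Us, S'.In ⊤ t) (hM : Nat.card H = N)
    (hN : (gsOf lv).map (nd (idv w n) Ts) = Ns) (e : homB w n v m N N bs Ts Us lv pr pr' lw lw' = true) :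
    Nat.card (S.cl Ns) = N ∧ Nonempty (S.cl Ns ≃* H) :=
  have := S.finite
  let ⟨a, φ, b, _⟩ := hom_ss hb h h' hM hN e
  ⟨a, ⟨MulEquiv.ofBijective φ ((MonoidHom.range_eq_top.1 b).bijective_of_nat_card_le (a.trans hM.symm).le)⟩⟩

theorem quot_ss (hb : S.Base bs) (h : ∀ t ∈ Ts, S.In ⊤ t) (h' : ∀ t ∈ Us, S'.In ⊤ t) (hM : Nat.card H = M)
    (hN : (gsOf lv).map (nd (idv w n) Ts) = Ns) (e : homB w n v m N M bs Ts Us lv pr pr' lw lw' = true) {Qs : List ℕ}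
    (hQ : ∀ t ∈ Qs, ∃ i ∈ gsOf lv, nd (idv w n) Ts i = t ∧ nd (idv v m) Us i = idv v m) (hk : N = Nat.card (S.cl Qs) * M)
    {K : Subgroup G} (hK : K = S.cl Ns) [((S.cl Qs).subgroupOf K).Normal] :
    Nat.card K = N ∧ Nonempty (K ⧸ (S.cl Qs).subgroupOf K ≃* H) := by
  have := S.finite
  have := S'.finite
  subst hK
  obtain ⟨a, φ, b, c⟩ := hom_ss hb h h' hM hN e
  refine ⟨a, quot_equiv φ b (Subgroup.eq_of_le_of_card_ge (cl_le' fun t ht => ?_) ?_).symm⟩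
  · obtain ⟨i, hi, rfl, d⟩ := hQ t ht
    exact ⟨⟨gn S Ts i, Subgroup.subset_closure ⟨_, hN ▸ List.mem_map_of_mem hi, rfl⟩⟩,
      (c i hi _).trans (by rw [gn, d, el_idv]), rfl⟩
  · rw [Subgroup.card_map_of_injective (Subgroup.subtype_injective _)]
    refine (Nat.eq_of_mul_eq_mul_right (hM ▸ Nat.card_pos) (Eq.trans ?_ (a.trans hk))).le
    rw [← φ.ker.card_mul_index, Subgroup.index_ker, b, Subgroup.card_top, hM]

end H27.MG
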