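import Cfsg.Agent.H24.Kpi
import Cfsg.Agent.H03.Frobenius
import Cfsg.Agent.H03.Tate

/-!
More on numbers of classes (namespace `H27`).
* `mul_ncard_image_mk_le` : if every class meeting `S` meets it in at least `n` points then `n * #classes ≤ |S|`;
* `succ_le_relIndex_cent` : a `q`-element acting non-trivially on a `p`-group `D` has `[D : C_D(g)] ≥ q + 1`;
* `two_mul_kp_le` : odd `q`-element normalizing, not centralizing a `P`-centric `D ≤ P` gives `2 k_p ≤ |P|`;
* `kpi_le_card_conjClasses` : `k_π(G) ≤ k(H)` if every π-element is conjugate into `H`;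
* `card_conjClasses_le_kp` : `k(P) ≤ k_p(G)` when `G` has a normal `p`-complement;
* `sq_mem_center_of_classes` : `|G| < 2 k(G)` forces all squares to be central.
-/

set_option autoImplicit false
open Cfsg Subgroup

namespace H27

variable {G : Type*} [Group G]

theorem mul_ncard_image_mk_le [Finite G] (S : Set G) (n : ℕ)
    (h : ∀ x ∈ S, ∃ T : Finset G, n ≤ T.card ∧ ∀ y ∈ T, y ∈ S ∧ IsConj x y) :
    n * (ConjClasses.mk '' S).ncard ≤ S.ncard := by
  classical
  have hS := Set.toFinite S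
  have h2 : n * (hS.toFinset.image ConjClasses.mk).card ≤ hS.toFinset.card := by
    apply Finset.mul_card_image_le_card
    intro c hc
    obtain ⟨x, hx, rfl⟩ := Finset.mem_image.1 hc
    obtain ⟨T, h1, h2⟩ := h x (hS.mem_toFinset.1 hx)
    refine h1.trans (Finset.card_le_card fun y hy => Finset.mem_filter.2 ⟨hS.mem_toFinset.2 (h2 y hy).1, ?_⟩)
    exact ConjClasses.mk_eq_mk_iff_isConj.2 (h2 y hy).2.symm
  rw [Set.ncard_eq_toFinset_card S hS, ← Set.ncard_coe_finset (hS.toFinset.image _)] at *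
  simpa using h2

theorem succ_le_relIndex_cent [Finite G] {p : ℕ} [hp : Fact p.Prime] {D : Subgroup G}
    (hD : IsPGroup p D) {q : ℕ} (hq : q.Prime) (hqp : q ≠ p) {g : G}
    (hg : g ∈ normalizer (D : Set G)) (hk : ∃ k, orderOf g = q ^ k)
    (hc : g ∉ centralizer (D : Set G)) : q + 1 ≤ (cent g).relIndex D := by
  have := Fact.mk hq
  obtain ⟨k, hk⟩ := hk
  let A : Subgroup (normalizer (D : Set G)) := zpowers ⟨g, hg⟩
  have hA : IsPGroup q A := IsPGroup.of_card (n := k) (by
    rw [Nat.card_zpowers, ← Subgroup.orderOf_coe, hk])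
  have h1 := hA.card_modEq_card_fixedPoints D
  let F : Subgroup D := (cent g).subgroupOf D
  have h2 : MulAction.fixedPoints A D = (F : Set D) := by
    ext d
    rw [MulAction.mem_fixedPoints]
    constructor
    · intro h
      have h3 := congrArg Subtype.val (h ⟨⟨g, hg⟩, mem_zpowers _⟩)
      exact mem_centralizer_singleton_iff.mpr (mul_inv_eq_iff_eq_mul.mp h3).symm
    · rintro h ⟨_, m, rfl⟩
      apply Subtype.ext
      have h3 : Commute g d := (mem_centralizer_singleton_iff.mp h).symm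
      exact mul_inv_eq_iff_eq_mul.mpr (h3.zpow_left m)
  rw [h2] at h1
  obtain ⟨a, ha⟩ := IsPGroup.iff_card.mp (hD.to_subgroup F)
  have h4 := F.card_mul_index
  have h0 : F.index ≠ 0 := index_ne_zero_of_finite
  have h5 : F.index ≠ 1 := by
    intro hj
    rw [index_eq_one] at hj
    exact hc fun d hd => (mem_centralizer_singleton_iff.mp
      (show (⟨d, hd⟩ : D) ∈ F from hj ▸ mem_top _))
  change Nat.card D ≡ Nat.card F [MOD q] at h1
  rw [← h4, ha] at h1
  have h6 := (Nat.modEq_iff_dvd' (Nat.le_mul_of_pos_right _ (Nat.pos_of_ne_zero h0))).mp h1.symm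
  rw [← Nat.mul_sub_one] at h6
  have h7 := (Nat.Coprime.pow_right a ((Nat.coprime_primes hq hp.out).mpr hqp)).dvd_of_dvd_mul_left h6
  have h8 := Nat.le_of_dvd (by omega) h7
  change q + 1 ≤ F.index
  omega

theorem two_mul_kp_le [Finite G] {p : ℕ} [hp : Fact p.Prime] (P : Sylow p G) {D : Subgroup G} (hD : D ≤ P)
    (hC : (P : Subgroup G) ⊓ centralizer (D : Set G) ≤ D) {q : ℕ} (hq : q.Prime) (hqp : q ≠ p) (hq2 : q ≠ 2)
    {g : G} (hg : g ∈ normalizer (D : Set G)) (hk : ∃ k, orderOf g = q ^ k)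
    (hc : g ∉ centralizer (D : Set G)) : 2 * kpi {p} G ≤ Nat.card (P : Subgroup G) := by
  classical
  rw [H24.kpi_eq_ncard P]
  have h4 : 4 ≤ (cent g).relIndex D := by
    have := succ_le_relIndex_cent (P.2.to_le hD) hq hqp hg hk hc
    have := hq.two_le
    omega
  set A : Subgroup G := D ⊓ cent g with hA
  have hAD : 4 * Nat.card A ≤ Nat.card D := by
    have h1 := H01.card_mul_relIndex (inf_le_left : D ⊓ cent g ≤ D)
    rw [inf_comm, inf_relIndex_right, inf_comm] at h1
    rw [← h1, mul_comm]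
    exact Nat.mul_le_mul_left _ h4
  have hodd : Odd (orderOf g) := by
    obtain ⟨k, hk⟩ := hk
    rw [hk]; exact (hq.odd_of_ne_two hq2).pow
  have hg2 : ∀ x, Commute (g ^ 2) x → Commute g x := by
    intro x hx
    obtain ⟨m, hm⟩ := hodd
    have : g = (g ^ 2) ^ (m + 1) := by
      rw [← pow_mul, show 2 * (m + 1) = orderOf g + 1 by omega, pow_succ, pow_orderOf_eq_one, one_mul]
    rw [this]; exact hx.pow_left _
  have hgD : ∀ x ∈ D, g * x * g⁻¹ ∈ D := fun x hx => (mem_normalizer_iff.1 hg x).1 hx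
  have hS1 : 3 * (ConjClasses.mk '' ((D : Set G) \ A)).ncard ≤ ((D : Set G) \ A).ncard := by
    apply mul_ncard_image_mk_le
    intro x hx
    have hstep : ∀ y ∈ (D : Set G) \ A, g * y * g⁻¹ ∈ (D : Set G) \ A := by
      intro y hy
      refine ⟨hgD y hy.1, fun h => hy.2 ⟨hy.1, mem_cent.2 ?_⟩⟩
      have := mem_cent.1 h.2
      calc y * g = g⁻¹ * (g * y * g⁻¹ * g) * g := by group
        _ = g⁻¹ * (g * (g * y * g⁻¹)) * g := by rw [this]
        _ = g * y := by group
    have hne : ∀ y ∈ (D : Set G) \ A, y ≠ g * y * g⁻¹ := fun y hy h =>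
      hy.2 ⟨hy.1, mem_cent.2 (by rw [eq_mul_inv_iff_mul_eq] at h; exact h)⟩
    refine ⟨{x, g * x * g⁻¹, g * (g * x * g⁻¹) * g⁻¹}, ?_, ?_⟩
    · rw [Finset.card_eq_three.2 ⟨_, _, _, hne x hx, ?_, hne _ (hstep x hx), rfl⟩]
      intro h
      refine hx.2 ⟨hx.1, mem_cent.2 (hg2 x ?_).symm⟩
      show g ^ 2 * x = x * g ^ 2
      calc g ^ 2 * x = g * (g * x * g⁻¹) * g⁻¹ * g ^ 2 := by rw [pow_two]; group
        _ = x * g ^ 2 := by rw [← h]
    · intro y hy
      simp only [Finset.mem_insert, Finset.mem_singleton] at hy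
      rcases hy with rfl | rfl | rfl
      · exact ⟨hx, IsConj.refl _⟩
      · exact ⟨hstep x hx, isConj_iff.2 ⟨g, rfl⟩⟩
      · exact ⟨hstep _ (hstep x hx), isConj_iff.2 ⟨g * g, by group⟩⟩
  have hS2 : 2 * (ConjClasses.mk '' (((P : Subgroup G) : Set G) \ D)).ncard ≤
      (((P : Subgroup G) : Set G) \ D).ncard := by
    apply mul_ncard_image_mk_le
    intro x hx
    have : ∃ d ∈ D, ¬ d * x = x * d := by
      by_contra h
      push Not at h
      exact hx.2 (hC ⟨hx.1, fun d hd => h d hd⟩)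
    obtain ⟨d, hd, hdx⟩ := this
    refine ⟨{x, d * x * d⁻¹}, ?_, ?_⟩
    · rw [Finset.card_pair]
      intro h
      rw [eq_mul_inv_iff_mul_eq] at h
      exact hdx h.symm
    · intro y hy
      simp only [Finset.mem_insert, Finset.mem_singleton] at hy
      rcases hy with rfl | rfl
      · exact ⟨hx, IsConj.refl _⟩
      · refine ⟨⟨mul_mem (mul_mem (hD hd) hx.1) (inv_mem (hD hd)), fun h => hx.2 ?_⟩, isConj_iff.2 ⟨d, rfl⟩⟩
        have : x = d⁻¹ * (d * x * d⁻¹) * d := by group
        rw [this]; exact mul_mem (mul_mem (inv_mem hd) h) hd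
  have e1 : ((D : Set G) \ A).ncard + Nat.card A = Nat.card D :=
    Set.ncard_sdiff_add_ncard_of_subset (s := (A : Set G)) (t := (D : Set G)) (inf_le_left : D ⊓ cent g ≤ D)
  have e2 : (((P : Subgroup G) : Set G) \ D).ncard + Nat.card D = Nat.card (P : Subgroup G) :=
    Set.ncard_sdiff_add_ncard_of_subset (s := (D : Set G)) (t := ((P : Subgroup G) : Set G)) hD
  have e3 : (ConjClasses.mk '' ((P : Subgroup G) : Set G)).ncard ≤
      (ConjClasses.mk '' (((P : Subgroup G) : Set G) \ D)).ncard +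
        ((ConjClasses.mk '' ((D : Set G) \ A)).ncard + Nat.card A) := by
    have : ConjClasses.mk '' ((P : Subgroup G) : Set G) ⊆ ConjClasses.mk '' (((P : Subgroup G) : Set G) \ D) ∪
        (ConjClasses.mk '' ((D : Set G) \ A) ∪ ConjClasses.mk '' (A : Set G)) := by
      rintro _ ⟨x, hx, rfl⟩
      by_cases h : x ∈ D
      · by_cases h' : x ∈ A
        · exact Or.inr (Or.inr ⟨x, h', rfl⟩)
        · exact Or.inr (Or.inl ⟨x, ⟨h, h'⟩, rfl⟩)
      · exact Or.inl ⟨x, ⟨hx, h⟩, rfl⟩
    refine (Set.ncard_le_ncard this).trans ((Set.ncard_union_le _ _).trans (Nat.add_le_add_left ?_ _))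
    exact (Set.ncard_union_le _ _).trans (Nat.add_le_add_left Set.ncard_image_le _)
  omega

theorem kpi_le_card_conjClasses [Finite G] (π : Set ℕ) (H : Subgroup G)
    (h : ∀ x : G, IsPiElt π x → ∃ g : G, g * x * g⁻¹ ∈ H) : kpi π G ≤ Nat.card (ConjClasses H) := by
  have : ∀ c : {C : ConjClasses G // ∀ q : ℕ, q.Prime →
      (∃ g : G, ConjClasses.mk g = C ∧ q ∣ orderOf g) → q ∈ π},
      ∃ d : ConjClasses H, ConjClasses.map H.subtype d = c.1 := by
    rintro ⟨c, hc⟩
    obtain ⟨x, rfl⟩ := ConjClasses.exists_rep c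
    obtain ⟨g, hg⟩ := h x ((kpi_cond_iff π x).1 hc)
    exact ⟨ConjClasses.mk ⟨_, hg⟩, ConjClasses.mk_eq_mk_iff_isConj.2 (isConj_iff.2 ⟨g, rfl⟩).symm⟩
  choose f hf using this
  exact Nat.card_le_card_of_injective f fun a b hab => Subtype.ext (by rw [← hf a, ← hf b, hab])

theorem card_conjClasses_le_kp [Finite G] {p : ℕ} [hp : Fact p.Prime] (P : Sylow p G)
    (h : HasNormalPComplement p G) : Nat.card (ConjClasses (P : Subgroup G)) ≤ kpi {p} G := by
  rw [H24.kpi_eq_ncard P, ← Nat.card_coe_set_eq]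
  refine Nat.card_le_card_of_injective (fun c => ⟨ConjClasses.map (P : Subgroup G).subtype c, ?_⟩) ?_
  · obtain ⟨x, rfl⟩ := ConjClasses.exists_rep c
    exact ⟨x, x.2, rfl⟩
  · intro a b hab
    obtain ⟨x, rfl⟩ := ConjClasses.exists_rep a
    obtain ⟨y, rfl⟩ := ConjClasses.exists_rep b
    have h1 : IsConj (x : G) y := ConjClasses.mk_eq_mk_iff_isConj.1 (congrArg Subtype.val hab)
    obtain ⟨g, hg⟩ := isConj_iff.1 h1
    obtain ⟨v, hv, h2⟩ := H03.HasNPC.exists_conj_sylow h P g
    refine ConjClasses.mk_eq_mk_iff_isConj.2 (isConj_iff.2 ⟨⟨v, hv⟩, Subtype.ext ?_⟩)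
    exact (h2 x x.2 (hg ▸ y.2)).trans hg

theorem sq_mem_center_of_classes [Finite G] (h : Nat.card G < 2 * Nat.card (ConjClasses G)) (x : G) :
    x ^ 2 ∈ center G := by
  classical
  letI := Fintype.ofFinite G
  by_contra hx
  have hn : 0 < Nat.card G := Nat.card_pos
  have hZ : 6 ≤ (center G).index := by
    by_contra h6
    have h1 : orderOf (x : G ⧸ center G) ∣ (center G).index := orderOf_dvd_natCard _
    have h2 : ¬ orderOf (x : G ⧸ center G) ∣ 2 := by
      rw [orderOf_dvd_iff_pow_eq_one, ← QuotientGroup.mk_pow, QuotientGroup.eq_one_iff]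
      exact hx
    have h0 : (center G).index ≠ 0 := index_ne_zero_of_finite
    have h3 : orderOf (x : G ⧸ center G) = (center G).index := by
      obtain ⟨c, hc⟩ := h1
      generalize orderOf (x : G ⧸ center G) = o at *
      have ho : 3 ≤ o := by
        by_contra h3
        have : o = 0 ∨ o = 1 ∨ o = 2 := by omega
        rcases this with rfl | rfl | rfl <;> simp_all
      have : c = 1 := by
        rcases c with _ | _ | c
        · omega
        · rfl
        · nlinarith
      rw [hc, this, mul_one]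
    haveI : IsCyclic (G ⧸ center G) := isCyclic_of_orderOf_eq_card _ h3
    refine hx (mem_center_iff.2 fun y => ?_)
    exact ((QuotientGroup.mk' (center G)).isMulCommutative_of_isCyclic_of_ker_le_center (by simp)).is_comm.comm y _
  have hT : 2 ≤ (cent (x ^ 2)).index := by
    have h0 : (cent (x ^ 2)).index ≠ 0 := index_ne_zero_of_finite
    have h1 : (cent (x ^ 2)).index ≠ 1 := fun h => hx (cent_eq_top_iff.1 (index_eq_one.1 h))
    omega
  have hpt : ∀ y : G, 6 * Nat.card (cent y) ≤ (2 + (if y ∈ cent (x ^ 2) then 1 else 0) +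
      (if y ∈ center G then 3 else 0)) * Nat.card G := by
    intro y
    have h1 := cs_mul_card_cent y
    have h2 := cs_pos y
    by_cases hy : y ∈ center G
    · rw [if_pos hy, if_pos (center_le_cent _ hy), cent_eq_top_iff.2 hy, card_top]
    · have h3 : cs y ≠ 1 := fun h => hy (cs_eq_one_iff.1 h)
      rw [if_neg hy]
      by_cases hy2 : y ∈ cent (x ^ 2)
      · rw [if_pos hy2, ← h1]
        have : 2 ≤ cs y := by omega
        nlinarith
      · rw [if_neg hy2, ← h1]
        have : cs y ≠ 2 := fun h => hy2 (mem_cent_comm.1 (sq_mem_of_index_two h x))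
        have : 3 ≤ cs y := by omega
        nlinarith
  have hsum := Finset.sum_le_sum fun y (_ : y ∈ (Finset.univ : Finset G)) => hpt y
  rw [← Finset.mul_sum, sum_card_cent_univ, ← Finset.sum_mul, Finset.sum_add_distrib, Finset.sum_add_distrib,
    ← Finset.sum_filter, ← Finset.sum_filter] at hsum
  simp only [Finset.sum_const, smul_eq_mul, Finset.card_univ] at hsum
  have e1 : ∀ (K : Subgroup G) [DecidablePred (· ∈ K)],
      (Finset.univ.filter (fun x => x ∈ K)).card = Nat.card K := fun K _ => by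
    rw [Nat.card_eq_fintype_card, Fintype.card_subtype]
  rw [e1, e1, ← Nat.card_eq_fintype_card, ← mul_assoc] at hsum
  have h5 := Nat.le_of_mul_le_mul_right hsum hn
  have h6 := (center G).card_mul_index
  have h7 := (cent (x ^ 2)).card_mul_index
  have h8 : 6 * Nat.card (center G) ≤ Nat.card G := by rw [← h6, mul_comm]; exact Nat.mul_le_mul_left _ hZ
  have h9 : 2 * Nat.card (cent (x ^ 2)) ≤ Nat.card G := by rw [← h7, mul_comm]; exact Nat.mul_le_mul_left _ hT
  omega

end H27
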