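import Cfsg.Agent.H27.Res

/-!
Models from actions on numbered points (namespace `H27.MG`): `exists_mdl`, `mem_stab`.
-/

set_option autoImplicit false

namespace H27.MG
open H13 H14.PK H14.PK.TS H27.PKx

variable {G α : Type*} [Group G] [MulAction G α] {P : Pts α} {W w : ℕ} {gen : ℕ → G} {nets : List Net} {K : Subgroup G}

/-- the table of the word in another width -/
noncomputable def wcvOk (W n : ℕ) (nets : List Net) (w : ℕ) (u : List ℕ) (t : ℕ) : Bool :=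
  force (tabW W n nets u) fun T => force t fun t =>
    band (Nat.blt t (p2 (Nat.mul w n))) (allLt (fun i => Nat.beq (get W T i) (get w t i)) n)

theorem exists_mdl (Y : Sys P W gen nets) (hg : ∀ l, gen l ∈ K) {O : Set α} (hO : P.set = O) (inv : ∀ g ∈ K, ∀ y ∈ O, g • y ∈ O)
    (hf : Faith P K) {N : ℕ} (hN : Nat.card K = N) {us pr : List (List ℕ)} {Ls : List ℕ} {lv : Ch}
    (e : band (band (Nat.blt 0 w) (Nat.ble P.n (2 ^ w))) (band (allL (fun t => anyL (fun u => wcvOk W P.n nets w u t) us) Ls)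
      (lowOk w P.n N pr Ls lv)) = true) :
    ∃ S : TS K w P.n, Mdl S Ls (lv.map Prod.fst) N ∧ ∀ g : K, ∀ i < P.n, (g : G) • P.pt i = P.pt (S.ap g i) := by
  subst hO
  simp only [band_eq_true, Nat.blt_eq, Nat.ble_eq] at e
  obtain ⟨⟨e1, e2⟩, e3, e4⟩ := e
  obtain ⟨S, hS⟩ := exists_act (G := K) P.pt e1 e2 P.inj (fun g i hi =>
    let ⟨j, a, b⟩ := inv g g.2 _ ⟨i, hi, rfl⟩; ⟨j, a, b.symm⟩) fun g h => Subtype.ext (hf g g.2 h)
  refine ⟨S, mdl_of_low e4 (fun t ht => ?_) hN, hS⟩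
  obtain ⟨u, -, c⟩ := anyL_iff.1 (allL_iff.1 e3 t ht)
  simp only [wcvOk, force_eq, band_eq_true, Nat.blt_eq, allLt_iff, Nat.beq_eq, p2_eq, Nat.mul_eq] at c
  exact ⟨⟨evalW gen u, evalW_mem fun l _ => hg l⟩, trivial, S.tb_eq_of_act P.inj hS c.1 fun i hi =>
    c.2 i hi ▸ Y.rep_tabW u i hi⟩

theorem in_stab {S : TS K w P.n} (hS : ∀ g : K, ∀ i < P.n, (g : G) • P.pt i = P.pt (S.ap g i)) {b : ℕ} (hb : b < P.n)
    {Ts : List ℕ} (h : ∀ t ∈ Ts, S.In ⊤ t) (e : allL (fun t => Nat.beq (get w t b) b) Ts = true) :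
    ∀ t ∈ Ts, S.In ((K ⊓ MulAction.stabilizer G (P.pt b)).subgroupOf K) t := fun t ht =>
  (h t ht).of_el ⟨(S.el t).2, (hS _ b hb).trans (by rw [(h t ht).ap_el, Nat.eq_of_beq_eq_true (allL_iff.1 e t ht)])⟩

theorem Mdl.emb_top {H H' : Type*} [Group H] [Group H'] {w₁ w₂ n₁ n₂ : ℕ} {S : TS H w₁ n₁} {S' : TS H' w₂ n₂}
    {Ls Ms Ts bs bs' : List ℕ} {N : ℕ} (M : Mdl S Ls bs N) (M' : Mdl S' Ms bs' N) {Ps : List (ℕ × ℕ)} (h1 : Ps.map Prod.fst = Ls)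
    (h2 : Ps.map Prod.snd = Ts) {p₀ pr pr' : List (List ℕ)} {ch lv : Ch} {sl : List (List ℕ × ℕ)}
    (e : band (band (Nat.blt 0 w) (Nat.ble (n₁ + n₂) (2 ^ w))) (band (Nat.beq (chN ch) N)
      (ssOk w (n₁ + n₂) (jnL w n₁ n₂ w₁ w₂ Ps) pr ch sl)) = true)
    (e' : band (slpOk w₂ n₂ Ts p₀ Ms) (lowOk w₂ n₂ N pr' Ts lv) = true) : Nonempty (H ≃* H') :=
  let M'' := M'.regen e'
  let ⟨f⟩ := M.emb M''.mem h1 h2 e (band_eq_true.1 e').2
  ⟨f.trans ((MulEquiv.subgroupCongr M''.cl).trans Subgroup.topEquiv)⟩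

/-- the model of a point stabiliser -/
theorem mdl_stab {S : TS K w P.n} {Ls bs : List ℕ} {N N' : ℕ} (M : Mdl S Ls bs N)
    (hS : ∀ g : K, ∀ i < P.n, (g : G) • P.pt i = P.pt (S.ap g i)) {b : ℕ} (hN : Nat.card ↥(K ⊓ MulAction.stabilizer G (P.pt b)) = N')
    {Ts : List ℕ} {pr pr' : List (List ℕ)} {lv : Ch} (e : band (band (Nat.blt b P.n) (allL (fun t => Nat.beq (get w t b) b) Ts))
      (band (slpOk w P.n Ts pr Ls) (lowOk w P.n N' pr' Ts lv)) = true) :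
    ∃ S' : TS ↥(K ⊓ MulAction.stabilizer G (P.pt b)) w P.n, Mdl S' Ts (lv.map Prod.fst) N' := by
  simp only [band_eq_true, Nat.blt_eq] at e
  obtain ⟨⟨e1, e2⟩, e3, e4⟩ := e
  refine ⟨S.comap (Subgroup.inclusion inf_le_left) (Subgroup.inclusion_injective _), mdl_of_low e4 (fun t ht => ?_) hN⟩
  obtain ⟨g, a, b⟩ := in_stab hS e1 (In.slp e3 M.mem) e2 t ht
  exact ⟨⟨g, a⟩, trivial, b⟩

end H27.MG
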