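import Mathlib
import Cfsg.Agent.H27.Four
import Cfsg.Agent.H27.Act
import Cfsg.Agent.H03.Tate
import Cfsg.Agent.H03.Alperin
import Cfsg.Agent.H03.Frobenius

/-!
Strongly closed subgroups of one fixed order.
* `H27.SC P E` : `E` is strongly closed in `P` w.r.t. the ambient group; `SC.inf`, `sc_of_hSubgroup`
  (an `H`-subgroup `E ≤ P`, `P` a `p`-group, is strongly closed), `SC.conj_mem`.
* `H27.AllSC P d` : all subgroups of `P` of order `d` are strongly closed; `AllSC.subgroupOf`, `AllSC.quot`,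
  `AllSC.quot_coprime`, `AllSC.of_exponent` (passes to larger orders if the exponent divides `d`),
  `AllSC.exists_prime` (an element of order not dividing `d` gives a strongly closed subgroup of order `p`).
* `exists_card_between`, `conj_eq_of_normalizes_zpowers`, `act_eq_one_of_card_dvd_prime`, `cent_of_allSC_two`.
* `hasNPC_of_allSC` (`p` the smallest prime divisor).
-/

open scoped Pointwise commutatorElement
open Subgroup Cfsg

namespace H27

universe u

variable {G : Type*} [Group G] {p : ℕ}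

/-- `E` is strongly closed in `P` with respect to the ambient group -/
def SC (P E : Subgroup G) : Prop := ∀ x ∈ E, ∀ g : G, g * x * g⁻¹ ∈ P → g * x * g⁻¹ ∈ E

/-- all subgroups of `P` of order `d` are strongly closed in `P` -/
def AllSC (P : Subgroup G) (d : ℕ) : Prop := ∀ E : Subgroup G, E ≤ P → Nat.card E = d → SC P E

theorem SC.inf {P E F : Subgroup G} (h : SC P E) (h' : SC P F) : SC P (E ⊓ F) :=
  fun x hx g hg => ⟨h x hx.1 g hg, h' x hx.2 g hg⟩

theorem SC.conj_mem {P E Q : Subgroup G} (h : SC P E) (hQ : Q ≤ P) {y x : G}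
    (hy : y ∈ normalizer (Q : Set G)) (hx : x ∈ E) (hxQ : x ∈ Q) : y * x * y⁻¹ ∈ E :=
  h x hx y (hQ (H03.conj_mem_of_mem_normalizer hy hxQ))

theorem SC.le_normalizer [Finite G] {P E : Subgroup G} (h : SC P E) (hE : E ≤ P) :
    P ≤ normalizer (E : Set G) := fun g hg =>
  H03.mem_normalizer_of_conj_le fun x hx => h x hx g (mul_mem (mul_mem hg (hE hx)) (inv_mem hg))

theorem sc_of_hSubgroup [Finite G] [Fact p.Prime] {P E : Subgroup G} (hP : IsPGroup p P) (hE : E ≤ P)
    (h : ∀ g : G, E.map (MulAut.conj g).toMonoidHom ⊓ normalizer (E : Set G) ≤ E) : SC P E := by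
  have hn : P ≤ normalizer (E : Set G) := by
    by_contra hne
    have h1 : P ⊓ normalizer (E : Set G) < P := lt_of_le_of_ne inf_le_left fun e => hne (inf_eq_left.1 e)
    obtain ⟨g, hg, hg'⟩ := SetLike.exists_of_lt (H03.lt_inf_normalizer_of_lt hP h1)
    refine hg' ⟨hg.1, H03.mem_normalizer_of_conj_le fun x hx => h g ⟨H03.conj_mem_map_conj g hx, ?_⟩⟩
    exact (H03.conj_mem_of_mem_normalizer hg.2 ⟨hE hx, le_normalizer hx⟩).2
  exact fun x hx g hg => h g ⟨H03.conj_mem_map_conj g hx, hn hg⟩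

theorem AllSC.subgroupOf {P : Subgroup G} {d : ℕ} (h : AllSC P d) (C : Subgroup G) :
    AllSC (P.subgroupOf C) d := by
  intro E hE hc x hx g hg
  have h1 := h (E.map C.subtype) (by rintro _ ⟨y, hy, rfl⟩; exact hE hy)
    (by rw [card_map_of_injective C.subtype_injective, hc]) x ⟨x, hx, rfl⟩ g hg
  obtain ⟨y, hy, e⟩ := h1
  have : y = g * x * g⁻¹ := Subtype.ext e
  exact this ▸ hy

theorem card_comap_mk (Z : Subgroup G) [Z.Normal] (E : Subgroup (G ⧸ Z)) :
    Nat.card (E.comap (QuotientGroup.mk' Z)) = Nat.card E * Nat.card Z := by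
  have h := QuotientGroup.card_preimage_mk Z (E : Set (G ⧸ Z))
  rw [mul_comm]
  exact h

theorem AllSC.quot {P : Subgroup G} {d : ℕ} (Z : Subgroup G) [Z.Normal] (hZ : Z ≤ P)
    (h : AllSC P (d * Nat.card Z)) : AllSC (P.map (QuotientGroup.mk' Z)) d := by
  have hP : (P.map (QuotientGroup.mk' Z)).comap (QuotientGroup.mk' Z) = P := by
    rw [comap_map_eq, QuotientGroup.ker_mk', sup_eq_left.2 hZ]
  intro E hE hc x hx g hg
  obtain ⟨x, rfl⟩ := QuotientGroup.mk'_surjective Z x
  obtain ⟨g, rfl⟩ := QuotientGroup.mk'_surjective Z g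
  exact h (E.comap (QuotientGroup.mk' Z)) ((comap_mono hE).trans hP.le) (by rw [card_comap_mk, hc])
    x hx g (hP.le hg)

theorem AllSC.quot_coprime [Finite G] [Fact p.Prime] {P : Subgroup G} (hP : IsPGroup p P) {d : ℕ}
    (N : Subgroup G) [hN : N.Normal] (hc : (Nat.card N).Coprime p) (h : AllSC P d) :
    AllSC (P.map (QuotientGroup.mk' N)) d := by
  intro E hE hcard x hx g hg
  have hdis := H03.disjoint_of_isPGroup_of_coprime hP hc
  have hmap : (E.comap (QuotientGroup.mk' N) ⊓ P).map (QuotientGroup.mk' N) = E := by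
    refine le_antisymm (map_le_iff_le_comap.2 inf_le_left) fun y hy => ?_
    obtain ⟨z, hz, rfl⟩ := hE hy
    exact ⟨z, ⟨hy, hz⟩, rfl⟩
  have hcard' : Nat.card (E.comap (QuotientGroup.mk' N) ⊓ P : Subgroup G) = d := by
    rw [← hcard]
    conv_rhs => rw [← hmap]
    refine Nat.card_congr (Equiv.ofBijective ((QuotientGroup.mk' N).subgroupMap _)
      ⟨?_, MonoidHom.subgroupMap_surjective _ _⟩)
    rw [injective_iff_map_eq_one]
    intro a ha
    have h1 : (a : G) ∈ N := (QuotientGroup.eq_one_iff _).1 (congrArg Subtype.val ha)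
    exact Subtype.ext (disjoint_def.1 hdis h1 a.2.2)
  rw [← hmap] at hx
  obtain ⟨x, hx, rfl⟩ := hx
  obtain ⟨g, rfl⟩ := QuotientGroup.mk'_surjective N g
  have hg' : g * x * g⁻¹ ∈ P ⊔ N := by
    have : g * x * g⁻¹ ∈ (P.map (QuotientGroup.mk' N)).comap (QuotientGroup.mk' N) := hg
    rwa [comap_map_eq, QuotientGroup.ker_mk'] at this
  have hrel : ¬ p ∣ P.relIndex (P ⊔ N) := by
    intro hd
    have h1 := H01.card_sup_mul_card_inf P N
    rw [disjoint_iff.1 hdis.symm, card_bot, mul_one, ← H01.card_mul_relIndex (le_sup_left : P ≤ P ⊔ N)] at h1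
    have h2 := Nat.eq_of_mul_eq_mul_left Nat.card_pos h1
    exact H03.coprime_iff_not_dvd.1 hc (h2 ▸ hd)
  have hpx : IsPGroup p (zpowers (g * x * g⁻¹)) := by
    have := (hP.to_le (zpowers_le.2 hx.2)).map (MulAut.conj g).toMonoidHom
    rwa [MonoidHom.map_zpowers] at this
  obtain ⟨c, hc1, hc2⟩ := H03.exists_conj_mem_of_not_dvd_relIndex hP hrel hpx (zpowers_le.2 hg')
  have hc3 : c ∈ (P : Set G) * (N : Set G) := by rw [← mul_normal]; exact hc1
  obtain ⟨y, hy, n, hn, rfl⟩ := hc3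
  have h1 := hc2 _ (mem_zpowers _)
  have h2 : n * g * x * (n * g)⁻¹ ∈ P := by
    have e : n * g * x * (n * g)⁻¹ = y⁻¹ * (y * n * (g * x * g⁻¹) * (y * n)⁻¹) * y := by group
    rw [e]
    exact mul_mem (mul_mem (inv_mem hy) h1) hy
  have h3 : QuotientGroup.mk' N (n * g * x * (n * g)⁻¹) ∈ E := (h _ inf_le_right hcard' x hx (n * g) h2).1
  have hn1 : QuotientGroup.mk' N n = 1 := (QuotientGroup.eq_one_iff _).2 hn
  simpa only [map_mul, map_inv, hn1, one_mul] using h3

theorem exists_card_between [Finite G] [hp : Fact p.Prime] {A B : Subgroup G} (hB : IsPGroup p B)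
    (hAB : A ≤ B) {k : ℕ} (h1 : Nat.card A ≤ p ^ k) (h2 : p ^ k ≤ Nat.card B) :
    ∃ E : Subgroup G, A ≤ E ∧ E ≤ B ∧ Nat.card E = p ^ k := by
  obtain ⟨a, ha⟩ := (hB.to_le hAB).exists_card_eq
  obtain ⟨b, hb⟩ := hB.exists_card_eq
  have hak : a ≤ k := (Nat.pow_le_pow_iff_right hp.out.one_lt).1 (ha ▸ h1)
  have hkb : k ≤ b := (Nat.pow_le_pow_iff_right hp.out.one_lt).1 (hb ▸ h2)
  obtain ⟨K, hK, hAK⟩ := Sylow.exists_subgroup_card_pow_prime_le (G := B) p (m := k)
    (hb ▸ pow_dvd_pow p hkb) (A.subgroupOf B)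
    (by rw [Nat.card_congr (subgroupOfEquivOfLe hAB).toEquiv, ha]) hak
  refine ⟨K.map B.subtype, fun x hx => ⟨⟨x, hAB hx⟩, hAK hx, rfl⟩, map_subtype_le _, ?_⟩
  rw [card_map_of_injective B.subtype_injective, hK]

theorem AllSC.of_exponent [Finite G] [hp : Fact p.Prime] {P : Subgroup G} (hP : IsPGroup p P) {k : ℕ}
    (h : AllSC P (p ^ k)) (he : ∀ x ∈ P, x ^ p ^ k = 1) {M : Subgroup G} (hM : M ≤ P)
    (hc : p ^ k ≤ Nat.card M) : SC P M := by
  intro x hx g hg
  obtain ⟨E, h1, h2, h3⟩ := exists_card_between (hP.to_le hM) (zpowers_le.2 hx) (k := k) (by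
    rw [Nat.card_zpowers]
    exact Nat.le_of_dvd (pow_pos hp.out.pos _) (orderOf_dvd_of_pow_eq_one (he x (hM hx)))) hc
  exact h2 (h E (h2.trans hM) h3 x (h1 (mem_zpowers x)) g hg)

theorem AllSC.exists_prime [Finite G] [hp : Fact p.Prime] {P : Subgroup G} (hP : IsPGroup p P) {k : ℕ}
    (hk : 1 ≤ k) (h : AllSC P (p ^ k)) {x : G} (hx : x ∈ P) (hne : x ^ p ^ k ≠ 1) :
    ∃ Z : Subgroup G, Z ≤ P ∧ Nat.card Z = p ∧ SC P Z := by
  obtain ⟨m, hm⟩ := (hP.to_le (zpowers_le.2 hx)).exists_card_eq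
  rw [Nat.card_zpowers] at hm
  have hkm : k < m := by
    by_contra hc
    exact hne (orderOf_dvd_iff_pow_eq_one.1 (hm ▸ pow_dvd_pow p (not_lt.1 hc)))
  have ho : ∀ j ≤ m, orderOf (x ^ p ^ (m - j)) = p ^ j := by
    intro j hj
    rw [orderOf_pow_of_dvd (pow_pos hp.out.pos _).ne' (hm ▸ pow_dvd_pow p (Nat.sub_le _ _)), hm,
      Nat.pow_div (Nat.sub_le _ _) hp.out.pos]
    congr 1; omega
  have hE := h (zpowers (x ^ p ^ (m - k))) (zpowers_le.2 (pow_mem hx _))
    (by rw [Nat.card_zpowers, ho k hkm.le])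
  refine ⟨zpowers (x ^ p ^ (m - 1)), zpowers_le.2 (pow_mem hx _), by
    rw [Nat.card_zpowers, ho 1 (by omega), pow_one], fun w hw g hg => ?_⟩
  have h1 : zpowers (x ^ p ^ (m - 1)) ≤ zpowers (x ^ p ^ (m - k)) := by
    rw [zpowers_le, show m - 1 = (m - k) + (k - 1) by omega, pow_add, pow_mul]
    exact pow_mem (mem_zpowers _) _
  have h2 : g * w * g⁻¹ ∈ zpowers x := zpowers_le.2 (pow_mem (mem_zpowers x) _) (hE w (h1 hw) g hg)
  have h3 : w ^ p = 1 := by
    have := orderOf_dvd_natCard _ hw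
    rw [Nat.card_zpowers, ho 1 (by omega), pow_one] at this
    exact orderOf_dvd_iff_pow_eq_one.1 this
  have h4 : (g * w * g⁻¹) ^ p = 1 := by rw [conj_pow, h3]; group
  obtain ⟨j, hj⟩ := (mem_powers_iff_mem_zpowers).2 h2
  simp only at hj
  rw [← hj] at h4 ⊢
  rw [← pow_mul, ← orderOf_dvd_iff_pow_eq_one, hm, show m = (m - 1) + 1 by omega, pow_succ] at h4
  obtain ⟨c, rfl⟩ := Nat.dvd_of_mul_dvd_mul_right hp.out.pos h4
  rw [pow_mul]
  exact pow_mem (mem_zpowers _) _

theorem conj_eq_of_normalizes_zpowers [Finite G] {x y : G} (hy : y * x * y⁻¹ ∈ zpowers x)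
    (hc : (orderOf y).Coprime (orderOf x).totient) : y * x * y⁻¹ = x := by
  have hn : y ∈ normalizer (zpowers x : Set G) := H03.mem_normalizer_of_conj_le fun w hw => by
    obtain ⟨j, rfl⟩ := mem_zpowers_iff.1 hw
    rw [← conj_zpow]
    exact zpow_mem hy j
  have h1 : orderOf (H17.conjAut _ hn) ∣ (orderOf x).totient := by
    rw [← Nat.card_zpowers x, ← IsCyclic.card_mulAut]
    exact orderOf_dvd_natCard _
  have h2 : orderOf (H17.conjAut _ hn) = 1 :=
    Nat.eq_one_of_dvd_coprimes hc (H17.orderOf_conjAut_dvd _ hn) h1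
  have h3 := H17.mem_centralizer_of_conjAut_eq_one _ hn (orderOf_eq_one_iff.1 h2) x (mem_zpowers x)
  rw [← h3, mul_inv_cancel_right]

theorem act_eq_one_of_card_dvd_prime {A X : Type*} [Group A] [Group X] [hp : Fact p.Prime]
    (hX : Nat.card X ∣ p) (ψ : A →* MulAut X) {a : A} (ha : (orderOf a).Coprime (p - 1)) :
    ψ a = 1 := by
  rcases (Nat.dvd_prime hp.out).1 hX with h | h
  · have := (Nat.card_eq_one_iff_unique.1 h).1
    ext x
    exact Subsingleton.elim _ _
  · haveI : Finite X := Nat.finite_of_card_ne_zero (h ▸ hp.out.ne_zero)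
    haveI := isCyclic_of_prime_card h
    have h1 : orderOf (ψ a) ∣ p - 1 := by
      rw [← Nat.totient_prime hp.out, ← h, ← IsCyclic.card_mulAut]
      exact orderOf_dvd_natCard _
    exact orderOf_eq_one_iff.1 (Nat.eq_one_of_dvd_coprimes ha (orderOf_map_dvd _ _) h1)

theorem cent_of_allSC_two [Finite G] {P : Subgroup G} (hP : IsPGroup 2 P) (h4 : AllSC P 4)
    (h2 : AllSC P 2 ∨ 4 < Nat.card P) {Q : Subgroup G} (hQ : Q ≤ P) {y : G}
    (hy : y ∈ normalizer (Q : Set G)) (hc : (orderOf y).Coprime 2) : y ∈ centralizer (Q : Set G) := by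
  refine mem_centralizer_of_fix_small (hP.to_le hQ) hy hc fun x hx hs => ?_
  have hx4 : orderOf x ∣ 2 ^ 2 := by
    rcases hs with hs | ⟨-, hs⟩
    · exact (orderOf_dvd_of_pow_eq_one hs).trans (by norm_num)
    · exact orderOf_dvd_of_pow_eq_one hs
  obtain ⟨i, hi, ho⟩ := (Nat.dvd_prime_pow Nat.prime_two).1 hx4
  interval_cases i
  · rw [orderOf_eq_one_iff.1 ho]; group
  swap
  · refine conj_eq_of_normalizes_zpowers ((h4 _ (zpowers_le.2 (hQ hx)) (by
      rw [Nat.card_zpowers, ho]; rfl)).conj_mem hQ hy (mem_zpowers x) hx) ?_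
    rw [ho]
    exact hc
  rcases h2 with h2 | h2
  · refine conj_eq_of_normalizes_zpowers ((h2 _ (zpowers_le.2 (hQ hx)) (by
      rw [Nat.card_zpowers, ho]; rfl)).conj_mem hQ hy (mem_zpowers x) hx) ?_
    rw [ho]
    exact Nat.coprime_one_right _
  have hA : ∀ e ∈ Q, e ≠ 1 → ∀ E F : Subgroup G, E ≤ P → F ≤ P → Nat.card E = 4 → Nat.card F = 4 →
      e ∈ E → e ∈ F → E ≠ F → y * e * y⁻¹ = e := by
    intro e he he1 E F hE hF hcE hcF heE heF hne
    have h5 := ((h4 E hE hcE).inf (h4 F hF hcF)).conj_mem hQ hy ⟨heE, heF⟩ he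
    have h6 : Nat.card (E ⊓ F : Subgroup G) ∣ 2 ^ 2 :=
      (show 2 ^ 2 = Nat.card E from hcE.symm) ▸ card_dvd_of_le inf_le_left
    obtain ⟨j, hj, h7⟩ := (Nat.dvd_prime_pow Nat.prime_two).1 h6
    have h8 : j ≠ 2 := by
      rintro rfl
      exact hne ((eq_of_le_of_card_ge inf_le_left (by rw [h7, hcE]; rfl)).symm.trans
        (eq_of_le_of_card_ge inf_le_right (by rw [h7, hcF]; rfl)))
    have h9 : zpowers e ≤ E ⊓ F := zpowers_le.2 ⟨heE, heF⟩
    have h10 : 1 < orderOf e := by
      have := orderOf_pos e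
      have := mt orderOf_eq_one_iff.1 he1
      omega
    have h11 : Nat.card (E ⊓ F : Subgroup G) ≤ 2 := by
      rw [h7]; interval_cases j <;> simp_all
    have h12 : zpowers e = E ⊓ F := eq_of_le_of_card_ge h9 (by rw [Nat.card_zpowers]; omega)
    have h13 : orderOf e = 2 := by
      have := card_le_of_le h9
      rw [Nat.card_zpowers] at this
      omega
    refine conj_eq_of_normalizes_zpowers (h12 ▸ h5) ?_
    rw [h13]
    exact Nat.coprime_one_right _
  by_contra hne
  obtain ⟨E, hxE, hEP, hE⟩ := exists_card_between hP (zpowers_le.2 (hQ hx)) (k := 2)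
    (by rw [Nat.card_zpowers, ho]; norm_num) h2.le
  have h8 : 2 ^ 3 ≤ Nat.card P := by
    obtain ⟨n, hn⟩ := hP.exists_card_eq
    rw [hn] at h2 ⊢
    exact Nat.pow_le_pow_right two_pos ((Nat.pow_lt_pow_iff_right one_lt_two).1 (show 2 ^ 2 < 2 ^ n from h2))
  obtain ⟨F, hEF, hFP, hF⟩ := exists_card_between hP hEP (k := 3) (by rw [hE]; norm_num) h8
  have hxE' : x ∈ E := hxE (mem_zpowers x)
  set x' := y * x * y⁻¹ with hx'
  have hx'E : x' ∈ E := (h4 E hEP hE).conj_mem hQ hy hxE' hx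
  have hx'Q : x' ∈ Q := H03.conj_mem_of_mem_normalizer hy hx
  have hxx : x * x = 1 := by rw [← pow_two, ← pow_one 2, ← ho, pow_orderOf_eq_one]
  have hx1 : x ≠ 1 := by rintro rfl; simp at ho
  have hx'1 : x' ≠ 1 := by
    intro h; apply hx1
    calc x = y⁻¹ * x' * y := by rw [hx']; group
      _ = 1 := by rw [h]; group
  have hxx'1 : x * x' ≠ 1 := by
    intro h; apply hne
    calc x' = x * (x * x') := by rw [← mul_assoc, hxx, one_mul]
      _ = x := by rw [h, mul_one]
  have hall : ∀ e ∈ E, e = 1 ∨ e = x ∨ e = x' ∨ e = x * x' := by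
    classical
    have hs : ({1, x, x', x * x'} : Finset G).card = 4 := by
      rw [Finset.card_eq_four]
      refine ⟨1, x, x', x * x', hx1.symm, hx'1.symm, hxx'1.symm, Ne.symm hne, ?_, ?_, rfl⟩
      · intro h; exact hx'1 (left_eq_mul.1 h)
      · intro h; exact hx1 (right_eq_mul.1 h)
    have hsub : (({1, x, x', x * x'} : Finset G) : Set G) ⊆ (E : Set G) := by
      intro e he
      simp only [Finset.coe_insert, Finset.coe_singleton, Set.mem_insert_iff, Set.mem_singleton_iff] at he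
      rcases he with rfl | rfl | rfl | rfl
      exacts [one_mem _, hxE', hx'E, mul_mem hxE' hx'E]
    have heq := Set.eq_of_subset_of_ncard_le hsub (by
      rw [Set.ncard_coe_finset, hs, ← Nat.card_coe_set_eq]; exact hE.le)
    intro e he
    have : e ∈ (({1, x, x', x * x'} : Finset G) : Set G) := heq ▸ he
    simpa using this
  have hEQ : E ≤ Q := by
    intro e he
    rcases hall e he with rfl | rfl | rfl | rfl
    exacts [one_mem _, hx, hx'Q, mul_mem hx hx'Q]
  have hx'x' : x' * x' = 1 := by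
    calc x' * x' = y * (x * x) * y⁻¹ := by rw [hx']; group
      _ = 1 := by rw [hxx]; group
  have hcm : x' * x = x * x' := by
    rcases hall _ (mul_mem hx'E hxE') with h | h | h | h
    · exact absurd (by rw [← mul_eq_one_comm.1 h]) hxx'1
    · exact absurd (right_eq_mul.1 h.symm) hx'1
    · exact absurd (left_eq_mul.1 h.symm) hx1
    · exact h
  have hE2 : ∀ e ∈ E, e * e = 1 := by
    intro e he
    rcases hall e he with rfl | rfl | rfl | rfl
    · exact one_mul _
    · exact hxx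
    · exact hx'x'
    · calc x * x' * (x * x') = x * (x' * x) * x' := by group
        _ = x * x * (x' * x') := by rw [hcm]; group
        _ = 1 := by rw [hxx, hx'x', one_mul]
  -- no nonidentity element of `E` is fixed by `y`
  have hnf : ∀ e ∈ E, e ≠ 1 → y * e * y⁻¹ ≠ e := by
    intro e he he1 hfix
    rcases hall e he with rfl | rfl | h | h
    · exact he1 rfl
    · exact hne hfix
    · apply hne
      have : x = e := by
        calc x = y⁻¹ * x' * y := by rw [hx']; group
          _ = y⁻¹ * (y * e * y⁻¹) * y := by rw [hfix, h]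
          _ = e := by group
      rw [← h, this]
    · apply hne
      refine H04.aut_apply_eq_of_coprime' (a := MulAut.conj y) (c := e) ?_ hfix ?_
      · change x' = _
        rw [h, ← mul_assoc, hxx, one_mul]
      · refine (hc.coprime_dvd_left (orderOf_map_dvd _ _)).coprime_dvd_right
          (orderOf_dvd_of_pow_eq_one (by rw [pow_two, hE2 e he]))
  obtain ⟨f, hfF, hfE⟩ := SetLike.exists_of_lt (lt_of_le_of_ne hEF (by
    rintro rfl; rw [hE] at hF; norm_num at hF))
  have hidx : E.relIndex F = 2 := by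
    have := H01.card_mul_relIndex hEF
    rw [hE, hF] at this
    omega
  have hff : f * f ∈ E := by
    have := mul_self_mem_of_index_two (H := E.subgroupOf F) hidx ⟨f, hfF⟩
    exact this
  have hEc : ∀ a ∈ E, ∀ b ∈ E, a * b = b * a := by
    intro a ha b hb
    calc a * b = (b * b) * (a * b) * (a * a) := by rw [hE2 a ha, hE2 b hb, one_mul, mul_one]
      _ = b * (b * a * (b * a)) * a := by group
      _ = b * a := by rw [hE2 _ (mul_mem hb ha), mul_one]
  by_cases hf1 : f * f = 1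
  · have hfx : f * x * f⁻¹ ∈ E := h4 E hEP hE x hxE' f
      (mul_mem (mul_mem (hFP hfF) (hQ hx)) (inv_mem (hFP hfF)))
    obtain ⟨e, he, he1, hfe⟩ : ∃ e ∈ E, e ≠ 1 ∧ f * e * f⁻¹ = e := by
      by_cases h : f * x * f⁻¹ = x
      · exact ⟨x, hxE', hx1, h⟩
      · refine ⟨x * (f * x * f⁻¹), mul_mem hxE' hfx, fun h1 => h ?_, ?_⟩
        · calc f * x * f⁻¹ = x * (x * (f * x * f⁻¹)) := by rw [← mul_assoc x x, hxx, one_mul]
            _ = x := by rw [h1, mul_one]
        · calc f * (x * (f * x * f⁻¹)) * f⁻¹ = f * x * f⁻¹ * ((f * f) * x * (f * f)⁻¹) := by group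
            _ = x * (f * x * f⁻¹) := by rw [hf1, one_mul, inv_one, mul_one, hEc _ hfx _ hxE']
    have hn : zpowers f ≤ normalizer (zpowers e : Set G) := zpowers_le.2
      (H03.mem_normalizer_of_conj_le fun w hw => by
        obtain ⟨j, rfl⟩ := mem_zpowers_iff.1 hw
        rw [← conj_zpow, hfe]
        exact hw)
    have h5 := H01.card_sup_mul_card_inf' hn
    have h6 : orderOf f ≤ 2 := orderOf_le_of_pow_eq_one two_pos (by rw [pow_two, hf1])
    have h7 : orderOf e ≤ 2 := orderOf_le_of_pow_eq_one two_pos (by rw [pow_two, hE2 e he])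
    rw [Nat.card_zpowers, Nat.card_zpowers] at h5
    have h9 : Nat.card (zpowers f ⊔ zpowers e : Subgroup G) ≤ 2 ^ 2 := by
      have := Nat.card_pos (α := (zpowers f ⊓ zpowers e : Subgroup G))
      nlinarith
    obtain ⟨E', k1, k2, k3⟩ := exists_card_between hP
      (sup_le (zpowers_le.2 (hFP hfF)) (zpowers_le.2 (hEP he))) h9 h2.le
    refine hnf e he he1 (hA e (hEQ he) he1 E E' hEP k2 hE k3 he (k1 (mem_sup_right (mem_zpowers e))) ?_)
    rintro rfl
    exact hfE (k1 (mem_sup_left (mem_zpowers f)))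
  · have h6 : orderOf f ≤ 2 ^ 2 := orderOf_le_of_pow_eq_one (by norm_num) (by
      rw [← hE2 _ hff, show 2 ^ 2 = 2 + 2 from rfl, pow_add, pow_two])
    obtain ⟨E', k1, k2, k3⟩ := exists_card_between hP (zpowers_le.2 (hFP hfF))
      (by rw [Nat.card_zpowers]; exact h6) h2.le
    refine hnf _ hff hf1 (hA _ (hEQ hff) hf1 E E' hEP k2 hE k3 hff
      (k1 (mul_mem (mem_zpowers f) (mem_zpowers f))) ?_)
    rintro rfl
    exact hfE (k1 (mem_zpowers f))

theorem mem_of_forall_coatom {P : Subgroup G} {x : G} (hx : x ∈ P)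
    (h : ∀ M : Subgroup P, IsCoatom M → x ∈ M.map P.subtype) : x ∈ (frattini P).map P.subtype := by
  refine ⟨⟨x, hx⟩, ?_, rfl⟩
  simp only [frattini, Order.radical, SetLike.mem_coe, mem_iInf, Set.mem_ofPred_eq]
  intro M hM
  obtain ⟨y, hy, e⟩ := h M hM
  have : y = ⟨x, hx⟩ := Subtype.ext e
  exact this ▸ hy

theorem card_coatom [Finite G] [hp : Fact p.Prime] {P : Subgroup G} (hP : IsPGroup p P) {M : Subgroup P}
    (hM : IsCoatom M) : Nat.card (M.map P.subtype) * p = Nat.card P := by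
  rw [card_map_of_injective P.subtype_injective, ← M.card_mul_index, H04.index_eq_of_isCoatom hP hM]

/-- an element normalizing `D ≤ P` of order prime to `p - 1` acts trivially on `D / (D ⊓ M)` for `M`
strongly closed of index `p` -/
theorem SC.inv_mul_conj_mem [Finite G] [hp : Fact p.Prime] {P M D : Subgroup G} (h : SC P M) (hM : M ≤ P)
    (hi : M.relIndex P = p) (hD : D ≤ P) {x : G} (hx : x ∈ normalizer (D : Set G))
    (hc : (orderOf x).Coprime (p - 1)) {a : G} (ha : a ∈ D) : a⁻¹ * (x * a * x⁻¹) ∈ M := by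
  have hn := h.le_normalizer hM
  haveI : (M.subgroupOf D).Normal := normal_subgroupOf_of_le_normalizer (hD.trans hn)
  haveI : (M.subgroupOf P).Normal := normal_subgroupOf_of_le_normalizer hn
  have hinv : Inv D.normalizerMonoidHom (M.subgroupOf D) := fun n y hy => h.conj_mem hD n.2 hy y.2
  have hcard : Nat.card (D ⧸ M.subgroupOf D) ∣ p := by
    rw [← hi]
    change M.relIndex D ∣ _
    have := relIndex_dvd_index_of_normal (M.subgroupOf P) (D.subgroupOf P)
    rwa [relIndex_subgroupOf hD] at this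
  have h1 := act_eq_one_of_card_dvd_prime hcard (quotAct _ _ hinv) (a := ⟨x, hx⟩)
    (by rwa [← orderOf_coe])
  have h2 := quotAct_mk hinv ⟨x, hx⟩ ⟨a, ha⟩
  rw [h1, MulAut.one_apply] at h2
  exact (QuotientGroup.eq (s := M.subgroupOf D)).1 h2

theorem coprime_pred_of_min [Finite G] [hp : Fact p.Prime]
    (hmin : ∀ q : ℕ, q.Prime → q ∣ Nat.card G → p ≤ q) (x : G) : (orderOf x).Coprime (p - 1) := by
  apply Nat.coprime_of_dvd
  intro q hq h1 h2
  have h3 := hmin q hq (h1.trans (orderOf_dvd_natCard x))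
  have h4 := hp.out.two_le
  have := Nat.le_of_dvd (by omega) h2
  omega

theorem hasNPC_of_allSC [hp : Fact p.Prime] (k : ℕ) : ∀ (G : Type u) [Group G] [Finite G] (P : Sylow p G),
    (∀ q : ℕ, q.Prime → q ∣ Nat.card G → p ≤ q) → 1 ≤ k → p ^ k < Nat.card P →
    AllSC (P : Subgroup G) (p ^ k) → (p ^ k = 2 → AllSC (P : Subgroup G) 4) →
    HasNormalPComplement p G := by
  induction k using Nat.strong_induction_on with
  | _ k ih =>
  intro G _ _ P hmin hk hlt h h2
  have hco := coprime_pred_of_min hmin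
  by_cases hb : p = 2 ∧ k ≤ 2
  · obtain ⟨rfl, hk2⟩ := hb
    refine H03.hasNPC_of_local P fun D hD _ g hg hc => ?_
    interval_cases k
    · exact cent_of_allSC_two P.2 (h2 rfl) (Or.inl h) hD hg hc
    · exact cent_of_allSC_two P.2 h (Or.inr hlt) hD hg hc
  by_cases hk1 : k = 1
  · subst hk1
    have hp2 : p ≠ 2 := fun e => hb ⟨e, one_le_two⟩
    refine H03.hasNPC_of_local P fun D hD _ g hg hc => ?_
    refine mem_centralizer_of_fix_small (P.2.to_le hD) hg hc fun x hx hs => ?_
    by_cases hx1 : x = 1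
    · rw [hx1]; group
    have ho : orderOf x = p := orderOf_eq_prime (hs.resolve_right fun e => hp2 e.1) hx1
    refine conj_eq_of_normalizes_zpowers ((h _ (zpowers_le.2 (hD hx)) (by
      rw [Nat.card_zpowers, ho, pow_one])).conj_mem hD hg (mem_zpowers x) hx) ?_
    rw [ho, Nat.totient_prime hp.out]
    exact hco g
  by_cases he : ∀ x ∈ (P : Subgroup G), x ^ p ^ k = 1
  · refine H03.hasNPC_of_pResidual_le _ le_rfl (H03.hasNPC_of_inf_le_frattini P _ ?_)
    intro x hx
    have hx' : x ∈ commutator G ⊓ (P : Subgroup G) :=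
      ⟨H03.inf_pResidual_le_commutator P.2 ⟨hx.2, hx.1⟩, hx.2⟩
    refine mem_of_forall_coatom hx.2 fun M hM => H03.commutator_inf_sylow_le P ?_ hx'
    have hc := card_coatom P.2 hM
    have hMP : M.map (P : Subgroup G).subtype ≤ P := map_subtype_le _
    have hsc : SC (P : Subgroup G) (M.map (P : Subgroup G).subtype) := by
      refine h.of_exponent P.2 he hMP ?_
      obtain ⟨n, hn⟩ := P.2.exists_card_eq
      have h3 : k < n := (Nat.pow_lt_pow_iff_right hp.out.one_lt).1 (hn ▸ hlt)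
      have h4 : p ^ (k + 1) ≤ p ^ n := Nat.pow_le_pow_right hp.out.pos h3
      rw [← hn, pow_succ] at h4
      exact Nat.le_of_mul_le_mul_right (h4.trans hc.ge) hp.out.pos
    have hi : (M.map (P : Subgroup G).subtype).relIndex P = p := by
      have := H01.card_mul_relIndex hMP
      exact Nat.eq_of_mul_eq_mul_left Nat.card_pos (this.trans hc.symm)
    intro y hy g hg
    refine H03.alperin_core P (fun A g => ∀ a ∈ A, a⁻¹ * (g * a * g⁻¹) ∈ M.map (P : Subgroup G).subtype)
      (fun A B g hAB hB a ha => hB a (hAB ha)) (fun A g h h1 h2 a ha => ?_)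
      (fun D hD _ _ x hx a ha => hsc.inv_mul_conj_mem hMP hi hD hx (hco x) ha)
      (zpowers y) g (zpowers_le.2 hy) (fun a ha => ?_) y (mem_zpowers y)
    · have := mul_mem (h1 a ha) (h2 _ (H03.conj_mem_map_conj g ha))
      convert this using 1
      group
    · obtain ⟨j, rfl⟩ := mem_zpowers_iff.1 ha
      rw [← conj_zpow]
      exact zpow_mem hg j
  push Not at he
  obtain ⟨x, hx, hne⟩ := he
  obtain ⟨Z, hZP, hZ, hsc⟩ := h.exists_prime P.2 hk hx hne
  have hNC : normalizer (Z : Set G) ≤ centralizer (Z : Set G) := fun g hg =>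
    H17.mem_centralizer_of_conjAut_eq_one Z hg
      (act_eq_one_of_card_dvd_prime hZ.dvd Z.normalizerMonoidHom (by rw [← orderOf_coe]; exact hco g))
  have hPC : (P : Subgroup G) ≤ centralizer (Z : Set G) := (hsc.le_normalizer hZP).trans hNC
  have hZp : IsPGroup p Z := P.2.to_le hZP
  refine H03.hasNPC_of_controls_fusion P hPC (fun x hx g hg => ?_) ?_
  · obtain ⟨c, hc, R, h1, -, h3⟩ := H03.exists_sylow_conj_mem (C := centralizer {g * x * g⁻¹}) hZp
      (fun z hz => mem_centralizer_singleton_iff.2 (hPC hg z hz)) (hZp.map (MulAut.conj g).toMonoidHom)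
      (by
        rintro _ ⟨z, hz, rfl⟩
        rw [mem_centralizer_singleton_iff]
        have := hPC hx z hz
        calc g * z * g⁻¹ * (g * x * g⁻¹) = g * (z * x) * g⁻¹ := by group
          _ = g * x * g⁻¹ * (g * z * g⁻¹) := by rw [this]; group)
    obtain ⟨t, ht⟩ := H03.exists_conj_mem_sylow P R.2
    have h4 : t ∈ normalizer (Z : Set G) :=
      H03.mem_normalizer_of_conj_le fun z hz => hsc z hz t (ht z (h1 hz))
    have h5 : t * c * g ∈ normalizer (Z : Set G) :=
      H03.mem_normalizer_of_conj_le fun z hz => hsc z hz _ (by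
        have := ht _ (h3 _ (H03.conj_mem_map_conj g hz))
        have e : t * c * g * z * (t * c * g)⁻¹ = t * (c * (g * z * g⁻¹) * c⁻¹) * t⁻¹ := by group
        rw [e]
        exact this)
    refine ⟨c * g, hNC ?_, ?_⟩
    · rw [mul_assoc] at h5
      exact (mul_mem_cancel_left h4).1 h5
    · have := mem_centralizer_singleton_iff.1 hc
      calc c * g * x * (c * g)⁻¹ = c * (g * x * g⁻¹) * c⁻¹ := by group
        _ = g * x * g⁻¹ := by rw [this]; group
  set C := centralizer (Z : Set G) with hC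
  have hZC : Z ≤ C := hZP.trans hPC
  have hcen : Z.subgroupOf C ≤ center C := fun z hz => mem_center_iff.2 fun c => Subtype.ext (c.2 z hz).symm
  haveI : (Z.subgroupOf C).Normal := ⟨fun n hn g => by
    rw [mem_center_iff.1 (hcen hn) g, mul_inv_cancel_right]; exact hn⟩
  have hZc : Nat.card (Z.subgroupOf C) = p := by
    rw [Nat.card_congr (subgroupOfEquivOfLe hZC).toEquiv, hZ]
  refine H03.hasNPC_of_quotient_center _ hcen (ih (k - 1) (by omega) _
    ((P.subtype hPC).mapSurjective (QuotientGroup.mk'_surjective _)) (fun q hq hd => hmin q hq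
      (hd.trans ((card_quotient_dvd_card _).trans (card_subgroup_dvd_card _)))) (by omega) ?_ ?_ ?_)
  · have h3 := card_comap_mk (Z.subgroupOf C) (((P : Subgroup G).subgroupOf C).map (QuotientGroup.mk' _))
    rw [comap_map_eq, QuotientGroup.ker_mk', sup_eq_left.2 (subgroupOf_mono C hZP), hZc,
      Nat.card_congr (subgroupOfEquivOfLe hPC).toEquiv] at h3
    have h4 : p ^ (k - 1) * p < Nat.card P := by rwa [← pow_succ, Nat.sub_add_cancel hk]
    exact Nat.lt_of_mul_lt_mul_right (h4.trans_eq h3)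
  · refine AllSC.quot _ (subgroupOf_mono C hZP) ?_
    rw [hZc, ← pow_succ, Nat.sub_add_cancel hk]
    exact h.subgroupOf C
  · intro e
    exfalso
    obtain ⟨e1, e2⟩ := (Nat.prime_two.pow_eq_iff).1 e
    exact hb ⟨e1, by omega⟩

end H27
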