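import Mathlib
import Cfsg.Agent.H27.SClosed
import Cfsg.Agent.H16.Huppert

/-!
Normal `p`-subgroups with cyclic chief factors.
* `H27.KK p G = G' G^(p-1)`; `KK_map_le`, `KK_le_centralizer` (normal subgroups of order `p`).
* `H27.le_centralizer_of_minNormal` : a normal `K` acting as a `p`-group centralizes a minimal normal `p`-subgroup.
* `H27.hc_of_cent` : if the `p'`-elements of `KK p G` centralize the normal `p`-subgroup `Q` then `H16.HC Q`.
* `H27.SC.normal`, `H27.hc_of_allSC` (all subgroups of `Q` of one order are normal in `G`).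
-/

open scoped Pointwise commutatorElement
open Subgroup Cfsg

namespace H27

universe u

variable {G : Type*} [Group G] {p : ℕ}

/-- the smallest normal subgroup with abelian quotient of exponent dividing `p - 1` -/
def KK (p : ℕ) (G : Type*) [Group G] : Subgroup G :=
  commutator G ⊔ closure (Set.range fun g : G => g ^ (p - 1))

instance KK_normal : (KK p G).Normal :=
  ⟨fun n hn g => by
    have e : g * n * g⁻¹ = ⁅g, n⁆ * n := by rw [commutatorElement_def]; group
    rw [e]
    exact mul_mem (mem_sup_left (commutator_mem_commutator (mem_top _) (mem_top _))) hn⟩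

theorem KK_map_le {H : Type*} [Group H] (f : G →* H) : (KK p G).map f ≤ KK p H := by
  rw [KK, KK, Subgroup.map_sup]
  refine sup_le_sup ?_ ?_
  · rw [_root_.commutator_def, _root_.commutator_def, map_commutator]
    exact commutator_mono le_top le_top
  · rw [MonoidHom.map_closure]
    refine closure_mono ?_
    rintro _ ⟨_, ⟨g, rfl⟩, rfl⟩
    exact ⟨f g, (map_pow f g _).symm⟩

theorem KK_le_centralizer [hp : Fact p.Prime] (V : Subgroup G) [V.Normal] (hV : Nat.card V = p) :
    KK p G ≤ centralizer (V : Set G) := by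
  haveI : Finite V := Nat.finite_of_card_ne_zero (hV ▸ hp.out.ne_zero)
  haveI := isCyclic_of_prime_card hV
  refine sup_le (H16.commutator_le_centralizer_of_isCyclic V) ((closure_le _).2 ?_)
  rintro _ ⟨g, rfl⟩
  exact H16.pow_mem_centralizer_of_card_prime hp.out V hV g

theorem le_centralizer_of_minNormal [Finite G] [hp : Fact p.Prime] {V K : Subgroup G} [V.Normal] [K.Normal]
    (hV : IsPGroup p V) (hmin : ∀ M : Subgroup G, M.Normal → M ≤ V → M = ⊥ ∨ M = V)
    (h : ∀ y ∈ K, ∃ m : ℕ, y ^ p ^ m ∈ centralizer (V : Set G)) : K ≤ centralizer (V : Set G) := by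
  by_cases h0 : V = ⊥
  · rw [le_centralizer_iff, h0]; exact bot_le
  let R : Subgroup (MulAut V) := K.map (MulAut.conjNormal (H := V))
  have hR : IsPGroup p R := by
    rintro ⟨_, y, hy, rfl⟩
    obtain ⟨m, hm⟩ := h y hy
    refine ⟨m, Subtype.ext ?_⟩
    change MulAut.conjNormal y ^ p ^ m = 1
    rw [← map_pow]
    ext v
    rw [MulAut.conjNormal_apply, ← hm v v.2, mul_inv_cancel_right]
    rfl
  obtain ⟨n, hn⟩ := hV.exists_card_eq
  have hd : p ∣ Nat.card V := by
    rcases n with _ | n
    · exact absurd (card_eq_one.1 hn) h0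
    · exact hn ▸ dvd_pow_self p n.succ_ne_zero
  obtain ⟨v, hv, hv1⟩ := hR.exists_fixed_point_of_prime_dvd_card_of_fixed_point V hd (a := 1)
    (fun r => map_one (r : MulAut V))
  rcases hmin (V ⊓ centralizer (K : Set G)) inferInstance inf_le_left with h1 | h1
  · exfalso
    apply hv1
    have : (v : G) ∈ V ⊓ centralizer (K : Set G) := ⟨v.2, fun y hy => by
      have := congrArg Subtype.val (hv ⟨_, y, hy, rfl⟩)
      change y * v * y⁻¹ = v at this
      rw [← mul_inv_eq_iff_eq_mul, this]⟩
    rw [h1] at this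
    exact Subtype.ext (mem_bot.1 this).symm
  · exact le_centralizer_iff.1 (h1.ge.trans inf_le_right)

theorem hc_of_cent [Finite G] [hp : Fact p.Prime] {Q : Subgroup G} [hQn : Q.Normal] (hQ : IsPGroup p Q)
    (h : ∀ y ∈ KK p G, (orderOf y).Coprime p → y ∈ centralizer (Q : Set G)) : H16.HC Q := by
  apply H16.HC.of_forall
  intro N hN hNP
  obtain ⟨B, hBn, hNB, hBP, hBmin⟩ := H02.exists_chief_factor hNP
  set π := QuotientGroup.mk' N
  have hπ : Function.Surjective π := QuotientGroup.mk'_surjective N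
  haveI : (B.map π).Normal := hBn.map _ hπ
  haveI : ((KK p G).map π).Normal := KK_normal.map _ hπ
  have hmin := H02.minimal_normal_map_of_chief_factor hNB.le hBmin
  have hBp : IsPGroup p (B.map π) := (hQ.to_le hBP).map π
  have hkey : (KK p G).map π ≤ centralizer (B.map π : Set (G ⧸ N)) := by
    refine le_centralizer_of_minNormal hBp hmin ?_
    rintro _ ⟨y, hy, rfl⟩
    obtain ⟨u, s, hu, hs, ⟨m, hm⟩, h3, e⟩ := H03.exists_pPart_mul (p := p) y
    refine ⟨m, ?_⟩
    have hc : Commute u s := by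
      obtain ⟨i, rfl⟩ := mem_zpowers_iff.1 hu
      obtain ⟨j, rfl⟩ := mem_zpowers_iff.1 hs
      exact Commute.zpow_zpow_self _ _ _
    rw [← map_pow, e, hc.mul_pow, ← hm, pow_orderOf_eq_one, one_mul]
    rintro _ ⟨b, hb, rfl⟩
    rw [← map_mul, ← map_mul, pow_mem (h s (zpowers_le.2 hy hs) h3) _ b (hBP hb)]
  have hB0 : B.map π ≠ ⊥ := by
    rw [Ne, Subgroup.map_eq_bot_iff, QuotientGroup.ker_mk']
    exact not_le_of_gt hNB
  haveI := hBp.isNilpotent
  obtain ⟨hcomm, q, hq, hq'⟩ := H02.minimal_normal_elementary_of_isSolvable hB0 hmin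
  have hqp : q = p := by
    by_contra hne
    haveI := Fact.mk hq
    exact hB0 (disjoint_self.1 (IsPGroup.disjoint_of_ne q p hne _ _
      (H02.isPGroup_of_pow_eq_one hq') hBp))
  subst hqp
  obtain ⟨g, hgB, hgN⟩ := SetLike.exists_of_lt hNB
  refine ⟨g, hBP hgB, hgN, ?_⟩
  have hz := H16.minNormal_zpowers_normal (p := q) hmin hq' (by
    refine le_trans ?_ ((map_mono (show commutator G ≤ KK q G from le_sup_left)).trans hkey)
    rw [_root_.commutator_def, _root_.commutator_def, map_commutator, map_top_of_surjective _ hπ]) (by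
    intro g
    obtain ⟨g, rfl⟩ := hπ g
    rw [← map_pow]
    exact hkey (mem_map_of_mem _ (mem_sup_right (subset_closure ⟨g, rfl⟩))))
    (mem_map_of_mem π hgB)
  have := hz.comap π
  rwa [← MonoidHom.map_zpowers, comap_map_eq, QuotientGroup.ker_mk', sup_comm] at this

theorem SC.normal {Q E : Subgroup G} [hQ : Q.Normal] (h : SC Q E) (hE : E ≤ Q) : E.Normal :=
  ⟨fun x hx g => h x hx g (hQ.conj_mem x (hE hx) g)⟩

theorem hc_of_allSC [hp : Fact p.Prime] (k : ℕ) : ∀ (G : Type u) [Group G] [Finite G] (Q : Subgroup G)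
    [Q.Normal], IsPGroup p Q → 1 ≤ k → p ^ k < Nat.card Q →
    AllSC Q (p ^ k) → (p ^ k = 2 → AllSC Q 4) → H16.HC Q := by
  induction k using Nat.strong_induction_on with
  | _ k ih =>
  intro G _ _ Q _ hQ hk hlt h h2
  have hn : ∀ g : G, g ∈ normalizer (Q : Set G) := fun g => (normalizer_eq_top Q).ge (mem_top g)
  by_cases hb : p = 2 ∧ k ≤ 2
  · obtain ⟨rfl, hk2⟩ := hb
    refine hc_of_cent hQ fun g _ hc => ?_
    interval_cases k
    · exact cent_of_allSC_two hQ (h2 rfl) (Or.inl h) le_rfl (hn g) hc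
    · exact cent_of_allSC_two hQ h (Or.inr hlt) le_rfl (hn g) hc
  by_cases hk1 : k = 1
  · subst hk1
    have hp2 : p ≠ 2 := fun e => hb ⟨e, one_le_two⟩
    refine hc_of_cent hQ fun g hg hc => ?_
    refine mem_centralizer_of_fix_small hQ (hn g) hc fun x hx hs => ?_
    by_cases hx1 : x = 1
    · rw [hx1]; group
    have ho : Nat.card (zpowers x) = p := by
      rw [Nat.card_zpowers, orderOf_eq_prime (hs.resolve_right fun e => hp2 e.1) hx1]
    haveI := (h _ (zpowers_le.2 hx) (by rw [ho, pow_one])).normal (zpowers_le.2 hx)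
    rw [← KK_le_centralizer _ ho hg x (mem_zpowers x), mul_inv_cancel_right]
  by_cases he : ∀ x ∈ Q, x ^ p ^ k = 1
  · refine hc_of_cent hQ fun g hg hc => H17.mem_centralizer_of_frattini hQ (hn g) hc fun x hx => ?_
    refine mem_of_forall_coatom (commutator_le_right ⊤ Q (commutator_mem_commutator (mem_top g) hx))
      fun M hM => ?_
    have hc := card_coatom hQ hM
    set M' := M.map Q.subtype
    have hMP : M' ≤ Q := map_subtype_le _
    have hsc : SC Q M' := by
      refine h.of_exponent hQ he hMP ?_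
      obtain ⟨n, hn⟩ := hQ.exists_card_eq
      have h3 : k < n := (Nat.pow_lt_pow_iff_right hp.out.one_lt).1 (hn ▸ hlt)
      have h4 : p ^ (k + 1) ≤ p ^ n := Nat.pow_le_pow_right hp.out.pos h3
      rw [← hn, pow_succ] at h4
      exact Nat.le_of_mul_le_mul_right (h4.trans hc.ge) hp.out.pos
    haveI := hsc.normal hMP
    haveI : (Q.map (QuotientGroup.mk' M')).Normal := Normal.map inferInstance _ (QuotientGroup.mk'_surjective _)
    have h3 := card_comap_mk M' (Q.map (QuotientGroup.mk' M'))
    rw [comap_map_eq, QuotientGroup.ker_mk', sup_eq_left.2 hMP, ← hc, mul_comm] at h3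
    have h4 := KK_le_centralizer _ (Nat.eq_of_mul_eq_mul_right Nat.card_pos h3).symm
      (KK_map_le (QuotientGroup.mk' M') (mem_map_of_mem _ hg)) _ (mem_map_of_mem _ hx)
    rw [← QuotientGroup.eq_one_iff, ← QuotientGroup.mk'_apply, map_commutatorElement,
      commutatorElement_eq_one_iff_mul_comm, h4]
  push Not at he
  obtain ⟨x, hx, hne⟩ := he
  obtain ⟨Z, hZP, hZ, hsc⟩ := h.exists_prime hQ hk hx hne
  haveI := hsc.normal hZP
  haveI := isCyclic_of_prime_card hZ
  haveI : (Q.map (QuotientGroup.mk' Z)).Normal := Normal.map inferInstance _ (QuotientGroup.mk'_surjective _)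
  have h3 := card_comap_mk Z (Q.map (QuotientGroup.mk' Z))
  have h5 : (Q.map (QuotientGroup.mk' Z)).comap (QuotientGroup.mk' Z) = Q := by
    rw [comap_map_eq, QuotientGroup.ker_mk', sup_eq_left.2 hZP]
  rw [h5, hZ] at h3
  rw [← h5]
  refine H16.HC.comap_of_surjective (QuotientGroup.mk'_surjective _)
    (by rw [QuotientGroup.ker_mk']; exact H16.HC.of_isCyclic Z)
    (ih (k - 1) (by omega) _ _ (hQ.map _) (by omega) ?_ ?_ ?_)
  · have h4 : p ^ (k - 1) * p < Nat.card Q := by rwa [← pow_succ, Nat.sub_add_cancel hk]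
    exact Nat.lt_of_mul_lt_mul_right (h4.trans_eq h3)
  · refine AllSC.quot _ hZP ?_
    rwa [hZ, ← pow_succ, Nat.sub_add_cancel hk]
  · intro e
    exfalso
    obtain ⟨e1, e2⟩ := (Nat.prime_two.pow_eq_iff).1 e
    exact hb ⟨e1, by omega⟩

end H27
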