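import Cfsg.Agent.H27.Spec3
import Cfsg.Agent.H27.MG5
import Cfsg.Agent.H27.PKo

/-!
Prime graphs of split extensions by subspaces of permutation modules over the field with two elements (namespace `H27`):
`sd_ord`, `sd_mk`, `mdl_ss`, `vec`, `pb`, `red`, `exists_mod`.
-/

set_option autoImplicit false

namespace H27
open H13 H14.PK H14.PK.TS H27.PKx H27.MG SemidirectProduct

section
variable {A L : Type*} [CommGroup A] [Group L] {φ : L →* MulAut A}

theorem sd_ord [Finite L] {r : ℕ} (hr : r.Prime) (hA : ∀ a : A, a ^ r = 1) (x : A ⋊[φ] L) :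
    orderOf x = orderOf x.right ∨ orderOf x = orderOf x.right * r ∧ ∃ a ≠ 1, φ x.right a = a := by
  obtain ⟨c, hc⟩ : orderOf x.right ∣ orderOf x := orderOf_map_dvd (rightHom (φ := φ)) x
  have h2 : orderOf x ∣ orderOf x.right * r := orderOf_dvd_of_pow_eq_one (sd_pow_mul_eq_one x _ _ (pow_orderOf_eq_one _) hA)
  by_cases h : ∃ a ≠ 1, φ x.right a = a
  · rw [hc] at h2
    rcases (Nat.dvd_prime hr).1 (Nat.dvd_of_mul_dvd_mul_left (orderOf_pos _) h2) with rfl | rfl
    exacts [.inl (hc.trans (mul_one _)), .inr ⟨hc, h⟩]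
  · exact .inl (Nat.dvd_antisymm (orderOf_dvd_of_pow_eq_one (sd_pow_eq_one_of_fpf x _ (pow_orderOf_eq_one _)
      fun a e => by_contra fun c => h ⟨a, c, e⟩)) ⟨c, hc⟩)

theorem sd_mk {r : ℕ} (hr : r.Prime) (hA : ∀ a : A, a ^ r = 1) {g : L} {a : A} (h1 : a ≠ 1) (h : φ g a = a)
    (hc : r.Coprime (orderOf g)) : ∃ x : A ⋊[φ] L, orderOf x = r * orderOf g := by
  have := Fact.mk hr
  have e1 : orderOf (inl a : A ⋊[φ] L) = r := (orderOf_injective inl inl_injective a).trans (orderOf_eq_prime (hA a) h1)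
  have e2 : orderOf (inr g : A ⋊[φ] L) = orderOf g := orderOf_injective inr inr_injective g
  exact ⟨inl a * inr g, by
    rw [Commute.orderOf_mul_eq_mul_orderOf_of_coprime (by ext <;> simp [h]) (by rwa [e1, e2]), e1, e2]⟩

end

theorem mdl_ss {w n N : ℕ} {hw : 0 < w} {hn : n ≤ 2 ^ w} {Ls : List ℕ} {pr pr' : List (List ℕ)} {ch lv : Ch} {sl : List (List ℕ × ℕ)}
    (e : band (allL (permOk w n) Ls) (ssOk w n Ls pr ch sl) = true) (hN : chN ch = N) (e' : lowOk w n N pr' Ls lv = true) :
    Mdl ((SP w n hw hn).sub ((SP w n hw hn).cl Ls)) Ls (lv.map Prod.fst) N :=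
  let ⟨a, b⟩ := ss_SP (hw := hw) (hn := hn) e
  mdl_of_low e' (fun t ht => ((a t ht).cl ht).sub) (b.card.trans hN)

/-- the vector with a given code -/
def vec (n m : ℕ) : Fin n → ZMod 2 := fun i => bif m.testBit i then 1 else 0

theorem vec_xor (n a b : ℕ) : vec n (Nat.xor a b) = vec n a + vec n b := funext fun i => by
  change (bif (a ^^^ b).testBit i then _ else _) = vec n a i + vec n b i
  rw [Nat.testBit_xor, vec, vec]; cases a.testBit i <;> cases b.testBit i <;> rfl

theorem vec_zero (n : ℕ) : vec n 0 = 0 := funext fun i => by simp [vec]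

/-- pull back along a table -/
noncomputable def pb (w n t m : ℕ) : ℕ := force t fun t => force m fun m => mkT 1 n fun i => get 1 m (get w t i)

theorem vec_pb {w n t m : ℕ} (i j : Fin n) (h : get w t i = j) : vec n (pb w n t m) i = vec n m j := by
  have k : ∀ x l, x.testBit l = (get 1 x l).testBit 0 := fun x l => by rw [testBit_get]; simp
  simp only [vec, pb, force_eq]
  rw [k, get_mkT fun _ _ => get_lt _ _ _, if_pos i.2, ← k, h]

/-- the combination of the basis given by the pivot entries -/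
noncomputable def red (Bs : List (ℕ × ℕ)) (y : ℕ) : ℕ := force y fun y =>
  List.rec (nat_lit 0) (fun b _ ih => Bool.rec ih (Nat.xor b.2 ih) (bt y b.1)) Bs

/-- the sum of the images under the powers -/
noncomputable def nrm (w n t m k : ℕ) : ℕ := Nat.rec (nat_lit 0) (fun _ ih => Nat.xor m (pb w n t ih)) k

theorem exists_mod {G : Type*} [Group G] {w n : ℕ} {S : TS G w n} {Ls bs : List ℕ} {N : ℕ} (M : Mdl S Ls bs N) {Bs : List (ℕ × ℕ)}
    (inv : allL (fun t => allL (fun b => force (pb w n t b.2) fun y => Nat.beq (red Bs y) y) Bs) Ls = true) :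
    ∃ (V : Type) (_ : AddCommGroup V) (_ : DistribMulAction G V) (_ : Finite V), (∀ v : V, 2 • v = 0) ∧
      (∀ t y i, S.In ⊤ t → band (band (Nat.beq (red Bs y) y) (Nat.beq (pb w n t y) y)) (band (Nat.blt i n) (bt y i)) = true →
        ∃ v : V, v ≠ 0 ∧ S.el t • v = v) ∧
      ∀ t k, S.In ⊤ t → allL (fun b => Nat.beq (nrm w n t b.2 (2 * k + 1)) 0) Bs = true → ∀ v : V, S.el t • v = v → v = 0 := by
  have := S.finite
  let a : G → Fin n → Fin n := fun g i => ⟨S.ap g i, S.ap_lt g i.2⟩
  let W : AddSubgroup (Fin n → ZMod 2) := .closure {v | ∃ b ∈ Bs, vec n b.2 = v}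
  have hr : ∀ y, vec n (red Bs y) ∈ W := fun y => by
    have : ∀ l : List (ℕ × ℕ), (∀ b ∈ l, b ∈ Bs) → vec n (red l y) ∈ W := fun l h => by
      induction l with
      | nil => exact vec_zero n ▸ W.zero_mem
      | cons b l ih =>
        have := ih fun c hc => h c (List.mem_cons_of_mem _ hc)
        change vec n (Bool.rec (red l y) (Nat.xor b.2 (red l y)) (bt y b.1)) ∈ W
        cases bt y b.1
        exacts [this, vec_xor n _ _ ▸ W.add_mem (AddSubgroup.subset_closure ⟨b, h b (by simp), rfl⟩) this]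
    exact this _ fun _ h => h
  have hp : ∀ t m, S.In ⊤ t → vec n (pb w n t m) = vec n m ∘ a (S.el t) := fun t m h =>
    funext fun i => vec_pb _ _ (h.ap_el i).symm
  have hW : ∀ g : G, ∀ f ∈ W, f ∘ a g ∈ W := fun g => by
    have hg : g ∈ Submonoid.closure (S.el '' {t | t ∈ Ls}) := by
      rw [← Subgroup.closure_toSubmonoid_of_finite]
      exact M.cl.ge trivial
    induction hg using Submonoid.closure_induction with
    | mem x hx =>
      obtain ⟨t, ht, rfl⟩ := hx
      refine (AddSubgroup.closure_le (K := W.comap (AddMonoidHom.mk' (· ∘ a (S.el t)) fun _ _ => rfl))).2 ?_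
      rintro _ ⟨b, hb, rfl⟩
      exact show vec n b.2 ∘ a (S.el t) ∈ W from
        (congrArg (vec n) (Nat.eq_of_beq_eq_true (allL_iff.1 (allL_iff.1 inv t ht) b hb))).trans (hp _ _ (M.mem t ht)) ▸ hr _
    | one => exact fun f hf => (show f = f ∘ a 1 from funext fun i => congrArg f (Fin.ext (S.ap_one i.2).symm)) ▸ hf
    | mul x y _ _ p q => exact fun f hf => (show (f ∘ a x) ∘ a y = f ∘ a (x * y) from
        funext fun i => congrArg f (Fin.ext (S.ap_mul _ _ i.2).symm)) ▸ q _ (p f hf)
  letI : DistribMulAction G (Fin n → ZMod 2) :=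
    { smul := fun g F => F ∘ a g⁻¹
      one_smul := fun F => funext fun i => congrArg F (Fin.ext (by simp [a, S.ap_one i.2]))
      mul_smul := fun g k F => funext fun i => congrArg F (Fin.ext (by simp [a, S.ap_mul _ _ i.2]))
      smul_zero := fun _ => rfl
      smul_add := fun _ _ _ => rfl }
  letI := subAct3 (G := G) W fun g => hW g⁻¹
  have fx : ∀ g : G, ∀ v : W, g • v = v ↔ v.1 ∘ a g = v.1 := fun g v => by
    rw [← eq_inv_smul_iff, eq_comm, Subtype.ext_iff]
    change v.1 ∘ a g⁻¹⁻¹ = _ ↔ _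
    rw [inv_inv]
  refine ⟨W, inferInstance, this, inferInstance, fun v => Subtype.ext (funext fun i => by simp [CharTwo.two_eq_zero]),
    fun t y i h e => ?_, fun t k h e v c => ?_⟩
  · simp only [band_eq_true, Nat.beq_eq, Nat.blt_eq, bt_eq] at e
    refine ⟨⟨vec n y, e.1.1 ▸ hr y⟩, fun c => ?_, (fx _ _).2 ((hp _ _ h).symm.trans (congrArg _ e.1.2))⟩
    simpa [vec, e.2.2] using congrFun (congrArg Subtype.val c) ⟨i, e.2.1⟩
  · let T : ℕ → (Fin n → ZMod 2) →+ Fin n → ZMod 2 := fun j =>
      Nat.rec 0 (fun _ ih => .id _ + (AddMonoidHom.mk' (· ∘ a (S.el t)) fun _ _ => rfl).comp ih) j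
    have h1 : ∀ m j, vec n (nrm w n t m j) = T j (vec n m) := fun m j => by
      induction j with
      | zero => exact vec_zero n
      | succ j ih => exact (vec_xor n m _).trans (congrArg _ ((hp _ _ h).trans (congrArg (· ∘ _) ih)))
    have h2 : ∀ j, T j v.1 = j • v.1 := fun j => by
      induction j with
      | zero => simp [T]
      | succ j ih =>
        change v.1 + T j v.1 ∘ _ = _
        rw [ih, succ_nsmul', show (j • v.1) ∘ a (S.el t) = j • (v.1 ∘ a (S.el t)) from rfl, (fx _ _).1 c]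
    have h3 : v.1 ∈ (T (2 * k + 1)).ker := (AddSubgroup.closure_le _).2 (by
      rintro _ ⟨b, hb, rfl⟩
      exact (h1 _ _).symm.trans ((congrArg _ (Nat.eq_of_beq_eq_true (allL_iff.1 e b hb))).trans (vec_zero n))) v.2
    exact Subtype.ext (funext fun i => by simpa [CharTwo.two_eq_zero] using congrFun ((h2 (2 * k + 1)).symm.trans h3) i)

end H27
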