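import Cfsg.Agent.H27.MG2
import Cfsg.Agent.S0280

/-! `PSU(4,2)` on 40 points: `H27.U42.model`. -/

set_option autoImplicit false
set_option maxRecDepth 100000

namespace H27.U42
open H13 H14.PK H14.PK.TS H27.PKx H27.MG Cfsg

def AT : ℕ := nat_lit 0x1b4eb1e4
def MT : ℕ := nat_lit 0x9c78e400
theorem fok : fieldOk 4 2 AT MT = true := by decide +kernel

def PT : ℕ := nat_lit 0xf4f1e4e1d4d1cdc9c5b4b1a4a194918d89857471646154514d4945403d39352d29251d1915100401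
def Ps : List (ℕ × ℕ) := [(nat_lit 0x3b2f3ec0, nat_lit 0x16258e98b5048464a06100d920d29d3df6c79095c005e4e59c268c4558dc), (nat_lit 0xecd45c01, nat_lit 0x6254d94a0e051c19e7428642d64573058d23d91e77c46d060922639a4c0)]
def Ls : List ℕ := [nat_lit 0x16258e98b5048464a06100d920d29d3df6c79095c005e4e59c268c4558dc, nat_lit 0x6254d94a0e051c19e7428642d64573058d23d91e77c46d060922639a4c0]
def bs : List ℕ := [nat_lit 0, nat_lit 1, nat_lit 3, nat_lit 13]

theorem model (F : Type*) [Field F] [Fintype F] (hF : Fintype.card F = 4) :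
    ∃ S : TS (PSU 4 F 2) 6 40, Mdl S Ls bs 25920 := by
  obtain ⟨C⟩ := FC.table F hF fok
  have hN : Nat.card (PSU 4 F 2) = 25920 := by
    have := Cfsg.Agent.S0280.result (q := 2) hF 4 (by norm_num)
    simp [Finset.prod_range_succ, Nat.even_iff] at this
    omega
  obtain ⟨S, h, -⟩ := C.model (Equiv.refl _) _ (QuotientGroup.mk' (Subgroup.center (SU 4 F 2))) (pj := true) (PT := PT) (w := 6)
    (n := 40) (by norm_num) (by norm_num) (by decide +kernel) (Ps := Ps)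
    (fun p hp => C.exists_SU (k := 20) (by norm_num) (allL_iff.1 (by decide +kernel : allL (fun p => band (slOk (opT 4 2 AT) (opT 4 2 MT) 2 4 4 20 p.1)
      (Nat.beq (mm (opT 4 2 AT) (opT 4 2 MT) 2 4 (mtr 2 4 (emap (opT 4 2 MT) 2 4 p.1 2)) p.1) (mone 2 4))) Ps = true) p hp))
    (allL_iff.1 (by decide +kernel)) hN (pr := [[nat_lit 0, nat_lit 0, nat_lit 1],
   [nat_lit 1, nat_lit 0, nat_lit 1, nat_lit 1, nat_lit 2],
   [nat_lit 2, nat_lit 3, nat_lit 3, nat_lit 1, nat_lit 3, nat_lit 2, nat_lit 1],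
   [nat_lit 1, nat_lit 1, nat_lit 0, nat_lit 1, nat_lit 0, nat_lit 1, nat_lit 1],
   [nat_lit 2, nat_lit 2, nat_lit 2, nat_lit 1, nat_lit 1, nat_lit 2],
   [nat_lit 0, nat_lit 0]]) (lv := [(nat_lit 0, [nat_lit 6, nat_lit 7]), (nat_lit 1, [nat_lit 4, nat_lit 3]), (nat_lit 3, [nat_lit 2, nat_lit 1, nat_lit 2]), (nat_lit 13, [nat_lit 0])]) (Ls := Ls) rfl (by decide +kernel)
    (Or.inr ⟨(QuotientGroup.ker_mk' _).le, [[nat_lit 0, nat_lit 0, nat_lit 1],
   [nat_lit 1, nat_lit 0, nat_lit 1, nat_lit 1, nat_lit 2],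
   [nat_lit 2, nat_lit 3, nat_lit 3, nat_lit 1, nat_lit 3, nat_lit 2, nat_lit 1]], nat_lit 0, [nat_lit 1, nat_lit 0], by decide +kernel⟩)
  exact ⟨S, h⟩

end H27.U42
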