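import Mathlib
import Cfsg.Agent.H27.CentRing2
import Cfsg.Agent.H18.Prim

/-!
# Wielandt's theorem on primitive groups of degree `2p`: the matrix part (helper27)

* `H27.W2 G p t ω E` : `Ω` is the union of two regular orbits of a cyclic group `t : ZMod p → G` and `E` is an
  invariant idempotent affording the regular character of this cyclic group.
* `H27.W2.orb` : the numerical relations for one orbital; `H27.W2.main` : rank 3 and the subdegrees.
* `H27.card_orbit_ne_one` : a primitive group with a non-trivial suborbit of length one is regular.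
-/

open Cfsg H05 MulAction

namespace H27

theorem two_by_two {E N : Matrix (Fin 2) (Fin 2) ℂ} (ht : E 0 0 + E 1 1 = 1) (h1 : N * E = 0)
    (h2 : E * N = 0) : N = (N 0 0 + N 1 1) • (1 - E) := by
  have a := fun i j => congrFun (congrFun h1 i) j
  have b := fun i j => congrFun (congrFun h2 i) j
  simp only [Matrix.mul_apply, Fin.sum_univ_two, Matrix.zero_apply] at a b
  ext i j
  fin_cases i <;> fin_cases j <;> simp
  · linear_combination a 0 0 - b 1 1 + N 1 1 * ht
  · linear_combination a 0 1 + b 0 1 - N 0 1 * ht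
  · linear_combination a 1 0 + b 1 0 - N 1 0 * ht
  · linear_combination a 1 1 - b 0 0 + N 0 0 * ht

theorem sum_addChar_mul {A : Type*} [AddCommGroup A] [Fintype A] [DecidableEq A] (f g : A → ℂ) :
    ∑ ψ : AddChar A ℂ, (∑ d, f d * ψ d) * (∑ d, g d * ψ d) = Fintype.card A * ∑ d, f d * g (-d) := by
  simp only [Finset.sum_mul_sum]
  rw [Finset.sum_comm, Finset.mul_sum]
  refine Finset.sum_congr rfl fun d _ => ?_
  rw [Finset.sum_comm]
  have : ∀ e, ∑ ψ : AddChar A ℂ, f d * ψ d * (g e * ψ e) =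
      if e = -d then Fintype.card A * (f d * g e) else 0 := fun e => by
    have h := AddChar.sum_apply_eq_ite (d + e)
    simp only [AddChar.map_add_eq_mul] at h
    rw [show (∑ ψ : AddChar A ℂ, f d * ψ d * (g e * ψ e)) = f d * g e * ∑ ψ : AddChar A ℂ, ψ d * ψ e by
      rw [Finset.mul_sum]; exact Finset.sum_congr rfl fun _ _ => by ring, h]
    simp only [add_eq_zero_iff_eq_neg', mul_ite, mul_zero, mul_comm]
  simp [this]

theorem const_of_sum_eq_zero {p : ℕ} [hp : Fact p.Prime] :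
    ∃ ψ : AddChar (ZMod p) ℂ, ∀ f : ZMod p → ℚ, ∑ d, (f d : ℂ) * ψ d = 0 → ∀ d, f d = f 0 := by
  have hζ := Complex.isPrimitiveRoot_exp p hp.out.ne_zero
  refine ⟨AddChar.zmodChar p hζ.pow_eq_one, ?_⟩
  obtain ⟨n, rfl⟩ : ∃ n, p = n + 1 := ⟨p - 1, by have := hp.out.pos; omega⟩
  intro f h d
  exact (hζ.sum_eq_zero_iff_forall_eq hp.out f).1 h d 0

variable {G Ω : Type*} [Group G] [MulAction G Ω]

theorem card_orbit_eq_one_of_prim [Finite G] (hG : IsPreprimitive G Ω) {a b : Ω} (hab : a ≠ b)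
    (h : Nat.card (orbit (stabilizer G a) b) = 1) (x y : Ω) :
    Nat.card (orbit (stabilizer G x) y) = 1 := by
  have h1 : stabilizer G a ≤ stabilizer G b := fun g hg => by
    haveI := (Nat.card_eq_one_iff_unique.1 h).1
    exact congrArg Subtype.val (Subsingleton.elim (⟨_, mem_orbit b (⟨g, hg⟩ : stabilizer G a)⟩ :
      orbit (stabilizer G a) b) ⟨b, mem_orbit_self b⟩)
  have h2 := H18.prim_rel hG (fun x y => stabilizer G x = stabilizer G y)
    ⟨fun _ => rfl, Eq.symm, Eq.trans⟩ (fun g x y h => by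
      rw [stabilizer_smul_eq_stabilizer_map_conj, stabilizer_smul_eq_stabilizer_map_conj, h]) hab
    (Subgroup.eq_of_le_of_card_ge h1 (H18.card_stabilizer_eq_of_trans b a).le) x y
  have : orbit (stabilizer G x) y = {y} := by
    ext z
    refine ⟨fun ⟨g, hg⟩ => hg.symm.trans ?_, fun h => h ▸ mem_orbit_self _⟩
    have : (g : G) ∈ stabilizer G y := h2 ▸ g.2
    exact this
  rw [this]; simp

variable [Fintype Ω] [DecidableEq Ω]

/-- the configuration of Wielandt's `2p` theorem -/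
structure W2 (G : Type*) [Group G] [MulAction G Ω] (p : ℕ) [Fact p.Prime] (t : ZMod p → G)
    (ω : Fin 2 → Ω) (E : Matrix Ω Ω ℂ) : Prop where
  add : ∀ a b, t (a + b) = t a * t b
  bij : Function.Bijective fun q : Fin 2 × ZMod p => t q.2 • ω q.1
  inv : InvM G E
  idem : E * E = E
  tr : ∀ d, E (ω 0) (t d • ω 0) + E (ω 1) (t d • ω 1) = if d = 0 then 1 else 0
  sc : ∀ T, InvM G T → ∃ c : ℂ, T * E = c • E ∧ E * T = c • E
  row : ∀ x, ∑ y, E x y = 0
  col : ∀ y, ∑ x, E x y = 0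

/-- Fourier transform of an invariant matrix -/
noncomputable def hat {p : ℕ} [Fact p.Prime] (t : ZMod p → G) (ω : Fin 2 → Ω) (ψ : AddChar (ZMod p) ℂ)
    (T : Matrix Ω Ω ℂ) : Matrix (Fin 2) (Fin 2) ℂ :=
  Matrix.of fun i k => ∑ d, T (ω i) (t d • ω k) * ψ d

namespace W2

variable {p : ℕ} [hp : Fact p.Prime] {t : ZMod p → G} {ω : Fin 2 → Ω} {E : Matrix Ω Ω ℂ}
  (h : W2 G p t ω E)
include h

theorem zero : t 0 = 1 := by
  have := h.add 0 0
  rwa [add_zero, left_eq_mul] at this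

theorem neg (d : ZMod p) : t (-d) = (t d)⁻¹ := by
  rw [eq_inv_iff_mul_eq_one, ← h.add, neg_add_cancel, h.zero]

theorem sum_eq {M : Type*} [AddCommMonoid M] (f : Ω → M) : ∑ y, f y = ∑ i, ∑ d, f (t d • ω i) := by
  rw [← Fintype.sum_prod_type']
  exact (Fintype.sum_bijective _ h.bij _ _ fun _ => rfl).symm

theorem eq_iff {i k : Fin 2} {d : ZMod p} : ω i = t d • ω k ↔ i = k ∧ d = 0 := by
  constructor
  · intro h1
    have := h.bij.1 (a₁ := (i, 0)) (a₂ := (k, d)) (by simpa [h.zero] using h1)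
    exact ⟨congrArg Prod.fst this, (congrArg Prod.snd this).symm⟩
  · rintro ⟨rfl, rfl⟩; rw [h.zero, one_smul]

theorem hat_mul (ψ : AddChar (ZMod p) ℂ) (T : Matrix Ω Ω ℂ) {T' : Matrix Ω Ω ℂ} (h' : InvM G T') :
    hat t ω ψ (T * T') = hat t ω ψ T * hat t ω ψ T' := by
  ext i k
  simp only [hat, Matrix.mul_apply, Matrix.of_apply, h.sum_eq, Finset.sum_mul_sum]
  simp only [Finset.sum_mul]
  rw [Finset.sum_comm]
  refine Finset.sum_congr rfl fun m _ => ?_
  rw [Finset.sum_comm]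
  refine Finset.sum_congr rfl fun c _ => ?_
  refine (Fintype.sum_equiv (Equiv.addLeft c) _ _ fun d => ?_).symm
  simp only [Equiv.coe_addLeft, h.add, mul_smul, h' (t c), AddChar.map_add_eq_mul]
  ring

theorem hat_sub_smul (ψ : AddChar (ZMod p) ℂ) (T : Matrix Ω Ω ℂ) (c : ℂ) :
    hat t ω ψ (T - c • 1) = hat t ω ψ T - c • 1 := by
  ext i k
  simp only [hat, Matrix.of_apply, Matrix.sub_apply, Matrix.smul_apply, Matrix.one_apply, h.eq_iff,
    sub_mul, Finset.sum_sub_distrib, smul_eq_mul]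
  congr 1
  by_cases hik : i = k <;> simp [hik]

theorem hat_tr (ψ : AddChar (ZMod p) ℂ) : hat t ω ψ E 0 0 + hat t ω ψ E 1 1 = 1 := by
  simp only [hat, Matrix.of_apply, ← Finset.sum_add_distrib, ← add_mul, h.tr]
  simp

theorem hat_eq (ψ : AddChar (ZMod p) ℂ) {T : Matrix Ω Ω ℂ} (hT : InvM G T) {c : ℂ}
    (h1 : T * E = c • E) (h2 : E * T = c • E) : hat t ω ψ (T - c • 1) =
      (hat t ω ψ (T - c • 1) 0 0 + hat t ω ψ (T - c • 1) 1 1) • (1 - hat t ω ψ E) := by
  have h0 : hat t ω ψ 0 = 0 := by ext; simp [hat]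
  apply two_by_two (h.hat_tr ψ)
  · rw [← h.hat_mul ψ _ h.inv, sub_mul, h1, smul_mul_assoc, one_mul, sub_self, h0]
  · rw [← h.hat_mul ψ _ (T' := T - c • 1), mul_sub, h2, mul_smul_comm, mul_one, sub_self, h0]
    intro g x y
    simp only [Matrix.sub_apply, hT g, Matrix.smul_apply, Matrix.one_apply, smul_left_cancel_iff]

theorem hat_det (ψ : AddChar (ZMod p) ℂ) :
    (1 - hat t ω ψ E 0 0) * (1 - hat t ω ψ E 1 1) = hat t ω ψ E 0 1 * hat t ω ψ E 1 0 := by
  have h1 := congrFun (congrFun (h.hat_mul ψ E h.inv) 0) 0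
  rw [h.idem, Matrix.mul_apply, Fin.sum_univ_two] at h1
  linear_combination h1 + (hat t ω ψ E 0 0 - 1) * h.hat_tr ψ

theorem hat_zero : 1 - hat t ω 0 E = Matrix.of fun _ _ => 1 / 2 := by
  have h1 := h.hat_tr 0
  have h2 : ∀ i, hat t ω 0 E i 0 + hat t ω 0 E i 1 = 0 := fun i => by
    simpa [hat, h.sum_eq] using h.row (ω i)
  have h3 : hat t ω 0 E 0 0 + hat t ω 0 E 1 0 = 0 := by
    have := h.col (ω 0)
    rw [h.sum_eq, Fin.sum_univ_two] at this
    simp only [h.inv.smul_left, ← h.neg] at this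
    rw [← this]
    simp only [hat, Matrix.of_apply, AddChar.zero_apply, mul_one]
    congr 1 <;> exact Fintype.sum_equiv (Equiv.neg _) _ _ fun d => by simp
  have h4 := h2 0
  have h5 := h2 1
  ext i k
  fin_cases i <;> fin_cases k <;> simp
  · linear_combination (-1 / 2 : ℂ) * (h1 + h3 - h5)
  · linear_combination (1 / 2 : ℂ) * (h1 + h3 - h5) - h4
  · linear_combination (1 / 2 : ℂ) * (h1 + h3 - h5) - h3
  · linear_combination (1 / 2 : ℂ) * (h1 + h3 - h5) - h1

theorem sum_eq_of_sc {T : Matrix Ω Ω ℂ} (hT : InvM G T) {c : ℂ}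
    (h1 : T * E = c • E) (h2 : E * T = c • E) (i k : Fin 2) :
    ∑ d, T (ω i) (t d • ω k) - (if i = k then c else 0) = ∑ d, T (ω 0) (t d • ω 1) := by
  have h3 := h.hat_eq 0 hT h1 h2
  rw [h.hat_zero] at h3
  have h4 := (congrFun (congrFun h3 i) k).trans (congrFun (congrFun h3 0) 1).symm
  rw [h.hat_sub_smul] at h4
  simpa [hat, Matrix.one_apply] using h4

theorem conv {T T' : Matrix Ω Ω ℂ} (hT : InvM G T) (hT' : InvM G T') {c c' : ℂ}
    (h1 : T * E = c • E) (h2 : E * T = c • E) (h1' : T' * E = c' • E) (h2' : E * T' = c' • E) :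
    ∑ d, (T - c • (1 : Matrix Ω Ω ℂ)) (ω 0) (t d • ω 0) * (T' - c' • (1 : Matrix Ω Ω ℂ)) (ω 1) (t (-d) • ω 1) =
      ∑ d, (T - c • (1 : Matrix Ω Ω ℂ)) (ω 0) (t d • ω 1) *
        (T' - c' • (1 : Matrix Ω Ω ℂ)) (ω 1) (t (-d) • ω 0) := by
  have h0 : (Fintype.card (ZMod p) : ℂ) ≠ 0 := Nat.cast_ne_zero.2 Fintype.card_ne_zero
  apply mul_left_cancel₀ h0
  rw [← sum_addChar_mul _ fun d => (T' - c' • (1 : Matrix Ω Ω ℂ)) (ω 1) (t d • ω 1),
    ← sum_addChar_mul _ fun d => (T' - c' • (1 : Matrix Ω Ω ℂ)) (ω 1) (t d • ω 0)]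
  refine Finset.sum_congr rfl fun ψ _ => ?_
  change hat t ω ψ (T - c • 1) 0 0 * hat t ω ψ (T' - c' • 1) 1 1 =
    hat t ω ψ (T - c • 1) 0 1 * hat t ω ψ (T' - c' • 1) 1 0
  have h3 := h.hat_eq ψ hT h1 h2
  have h4 := h.hat_eq ψ hT' h1' h2'
  generalize hat t ω ψ (T - c • 1) 0 0 + hat t ω ψ (T - c • 1) 1 1 = r at h3
  generalize hat t ω ψ (T' - c' • 1) 0 0 + hat t ω ψ (T' - c' • 1) 1 1 = r' at h4
  rw [h3, h4]
  simp
  linear_combination r * r' * h.hat_det ψ

theorem trace_eq : E.trace = p := by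
  rw [Matrix.trace, h.sum_eq, Finset.sum_comm]
  have := h.tr 0
  simp only [h.zero, one_smul, if_true] at this
  simp [h.inv (t _), this]

theorem card_eq : Fintype.card Ω = 2 * p := by
  rw [← Fintype.card_of_bijective h.bij]; simp

variable [IsPretransitive G Ω]

theorem diag (x : Ω) : E x x = 1 / 2 := by
  have := h.tr 0
  simp only [h.zero, one_smul, if_true] at this
  obtain ⟨g, rfl⟩ := exists_smul_eq G (ω 0) x
  obtain ⟨k, hk⟩ := exists_smul_eq G (ω 0) (ω 1)
  rw [← hk, h.inv] at this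
  rw [h.inv]
  linear_combination (1 / 2 : ℂ) * this

theorem orb {a b : Ω} (hab : a ≠ b) : ∃ s a₁ b₁ : ℤ,
    (Nat.card (orbit (stabilizer G a) b) : ℤ) = a₁ + b₁ ∧ s = a₁ - b₁ ∧
    b₁ = s ^ 2 + ∑ d, orbMat G a b (ω 0) (t d • ω 0) * orbMat G a b (ω 1) (t d • ω 1) ∧
    2 * Nat.card (orbit (stabilizer G a) b) * E a b = s ∧
    2 * Nat.card (orbit (stabilizer G a) b) * E b a = s ∧
    a₁ = ∑ d, orbMat G a b (ω 0) (t d • ω 0) ∧ a₁ = ∑ d, orbMat G a b (ω 1) (t d • ω 1) ∧
    ∀ ψ, hat t ω ψ (orbC G a b) 0 0 - s =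
      (hat t ω ψ (orbC G a b) 0 0 + hat t ω ψ (orbC G a b) 1 1 - 2 * s) * (1 - hat t ω ψ E 0 0) := by
  have hA := orbC_inv (G := G) a b
  obtain ⟨c, h1, h2⟩ := h.sc _ hA
  obtain ⟨c', h1', h2'⟩ := h.sc _ hA.transpose
  have e := h.sum_eq_of_sc hA h1 h2
  have e' := h.sum_eq_of_sc hA.transpose h1' h2'
  have hs : ∀ i k, ∑ d, (orbC G a b).transpose (ω i) (t d • ω k) = ∑ d, orbC G a b (ω k) (t d • ω i) := by
    intro i k
    simp only [Matrix.transpose_apply, hA.smul_left, ← h.neg]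
    exact Fintype.sum_equiv (Equiv.neg _) _ _ fun d => by simp
  simp only [hs] at e'
  have e00 := e 0 0
  have e11 := e 1 1
  have e10 := e 1 0
  have e00' := e' 0 0
  simp only [if_true, one_ne_zero, if_false, sub_zero] at e00 e11 e10 e00'
  obtain rfl : c = c' := by linear_combination e00' + e10 - e00
  have hc : c = ((∑ d, orbMat G a b (ω 0) (t d • ω 0) - ∑ d, orbMat G a b (ω 0) (t d • ω 1) : ℤ) : ℂ) := by
    push_cast
    simp only [orbC_apply] at e00
    linear_combination -e00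
  have hp0 : (p : ℂ) ≠ 0 := Nat.cast_ne_zero.2 hp.out.ne_zero
  refine ⟨_, _, ∑ d, orbMat G a b (ω 0) (t d • ω 1), ?_, rfl, ?_, ?_, ?_, rfl, ?_, fun ψ => ?_⟩
  · rw [← sum_orbMat a b (ω 0), h.sum_eq, Fin.sum_univ_two]
  · have h3 := h.conv hA hA.transpose h1 h2 h1' h2'
    have h4 : ∀ x, orbC G a b x x = 0 := fun x => by
      rcases orbMat_cases (G := G) a b x x with ⟨h5, -⟩ | ⟨-, g, h5, h6⟩
      · rw [orbC_apply, h5, Int.cast_zero]
      · exact absurd (MulAction.injective g (h5.trans h6.symm)) hab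
    have h5 : ∀ d, (orbC G a b - c • (1 : Matrix Ω Ω ℂ)) (ω 0) (t d • ω 0) *
        ((orbC G a b).transpose - c • (1 : Matrix Ω Ω ℂ)) (ω 1) (t (-d) • ω 1) =
        orbC G a b (ω 0) (t d • ω 0) * orbC G a b (ω 1) (t d • ω 1) + if d = 0 then c ^ 2 else 0 := by
      intro d
      simp only [Matrix.sub_apply, Matrix.smul_apply, Matrix.one_apply, h.eq_iff, true_and, neg_eq_zero]
      simp only [Matrix.transpose_apply, hA.smul_left, h.neg, inv_inv]
      split_ifs with hd
      · simp [hd, h.zero, h4, sq]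
      · simp
    have h6 : ∀ d, (orbC G a b - c • (1 : Matrix Ω Ω ℂ)) (ω 0) (t d • ω 1) *
        ((orbC G a b).transpose - c • (1 : Matrix Ω Ω ℂ)) (ω 1) (t (-d) • ω 0) =
        orbC G a b (ω 0) (t d • ω 1) := by
      intro d
      simp only [Matrix.sub_apply, Matrix.smul_apply, Matrix.one_apply, h.eq_iff]
      simp only [Matrix.transpose_apply, hA.smul_left, h.neg, inv_inv]
      rcases orbMat_cases (G := G) a b (ω 0) (t d • ω 1) with ⟨h7, -⟩ | ⟨h7, -⟩ <;>
        simp [orbC_apply, h7]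
    simp only [h5, h6, Finset.sum_add_distrib, Finset.sum_ite_eq', Finset.mem_univ, if_true] at h3
    apply Int.cast_injective (α := ℂ)
    rw [Int.cast_add, Int.cast_pow, ← hc]
    push_cast
    simp only [orbC_apply] at h3
    linear_combination -h3
  · have h3 := trace_orbC_transpose_mul h.inv a b
    rw [h1', Matrix.trace_smul, h.trace_eq, h.card_eq] at h3
    rw [← hc]
    apply mul_left_cancel₀ hp0
    push_cast at h3
    rw [smul_eq_mul] at h3
    linear_combination -h3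
  · have h3 := trace_orbC_transpose_mul h.inv.transpose a b
    rw [← Matrix.transpose_mul, h2, Matrix.trace_transpose, Matrix.trace_smul, h.trace_eq, h.card_eq] at h3
    rw [← hc]
    apply mul_left_cancel₀ hp0
    push_cast at h3
    rw [smul_eq_mul, Matrix.transpose_apply] at h3
    linear_combination -h3
  · apply Int.cast_injective (α := ℂ)
    push_cast
    simp only [orbC_apply] at e00 e11
    linear_combination e00 - e11
  · have h3 := congrFun (congrFun (h.hat_eq ψ hA h1 h2) 0) 0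
    rw [← hc]
    simp only [h.hat_sub_smul, Matrix.sub_apply, Matrix.smul_apply, Matrix.one_apply_eq, smul_eq_mul] at h3
    linear_combination h3

variable [Finite G]

omit h hp [Fintype Ω] [DecidableEq Ω] [IsPretransitive G Ω] in
theorem card_pos (a b : Ω) : 0 < Nat.card (orbit (stabilizer G a) b) :=
  haveI : Nonempty (orbit (stabilizer G a) b) := ⟨⟨b, mem_orbit_self b⟩⟩
  haveI : Finite (orbit (stabilizer G a) b) := Finite.finite_mulAction_orbit b
  Nat.card_pos

theorem symm (a b : Ω) : E a b = E b a := by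
  by_cases hab : a = b
  · rw [hab]
  obtain ⟨s, -, -, -, -, -, h1, h2, -⟩ := h.orb hab
  exact mul_left_cancel₀ (mul_ne_zero two_ne_zero (Nat.cast_ne_zero.2 (card_pos a b).ne'))
    (h1.trans h2.symm)

theorem rat (a b : Ω) : ∃ q : ℚ, E a b = q := by
  by_cases hab : a = b
  · exact ⟨1 / 2, by rw [hab, h.diag]; simp⟩
  obtain ⟨s, -, -, -, -, -, h1, -⟩ := h.orb hab
  refine ⟨s / (2 * Nat.card (orbit (stabilizer G a) b)), ?_⟩
  have : (Nat.card (orbit (stabilizer G a) b) : ℂ) ≠ 0 := Nat.cast_ne_zero.2 (card_pos a b).ne'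
  push_cast
  rw [← h1]; field_simp

omit [Finite G] [IsPretransitive G Ω] in
theorem ne_zero_of_orb {a b : Ω} (hab : a ≠ b) {i : Fin 2} {d : ZMod p}
    (h1 : ∃ g : G, g • a = ω i ∧ g • b = t d • ω i) : d ≠ 0 := by
  rintro rfl
  obtain ⟨g, h2, h3⟩ := h1
  rw [h.zero, one_smul] at h3
  exact hab (MulAction.injective g (h2.trans h3.symm))

theorem orb_ne {a b : Ω} (hab : a ≠ b) (h0 : E a b ≠ 0) : ∃ s : ℤ, s ≠ 0 ∧
    (Nat.card (orbit (stabilizer G a) b) : ℤ) = s * (2 * s + 1) ∧ 2 * (2 * s + 1) * E a b = 1 ∧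
    ∑ d, orbMat G a b (ω 0) (t d • ω 0) = s * (s + 1) := by
  obtain ⟨s, a₁, b₁, h1, h2, h3, h4, -, h5, -⟩ := h.orb hab
  have hs : s ≠ 0 := by
    rintro rfl
    exact mul_ne_zero (mul_ne_zero two_ne_zero (Nat.cast_ne_zero.2 (card_pos a b).ne')) h0
      (by simpa using h4)
  rw [Finset.sum_eq_zero, add_zero] at h3
  · have h6 : (Nat.card (orbit (stabilizer G a) b) : ℤ) = s * (2 * s + 1) := by
      rw [h1]; linear_combination 2 * h3 - h2
    refine ⟨s, hs, h6, ?_, by rw [← h5]; linear_combination h3 - h2⟩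
    have h7 := congrArg (Int.cast : ℤ → ℂ) h6
    push_cast at h7
    apply mul_left_cancel₀ (Int.cast_ne_zero (α := ℂ).2 hs)
    rw [h7] at h4
    linear_combination h4
  intro d _
  rcases orbMat_cases (G := G) a b (ω 0) (t d • ω 0) with ⟨h7, -⟩ | ⟨-, h7⟩
  · rw [h7, zero_mul]
  rcases orbMat_cases (G := G) a b (ω 1) (t d • ω 1) with ⟨h8, -⟩ | ⟨-, g', h8, h8'⟩
  · rw [h8, mul_zero]
  exfalso
  have h9 := h.tr d
  rw [if_neg (h.ne_zero_of_orb hab h7)] at h9
  obtain ⟨g, h7, h7'⟩ := h7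
  rw [← h7', ← h8', ← h7, ← h8, h.inv, h.inv] at h9
  exact h0 (by linear_combination (1 / 2 : ℂ) * h9)

theorem ne_zero {d₀ : ZMod p} (hd : d₀ ≠ 0) (hd' : E (ω 0) (t d₀ • ω 0) ≠ 0) {a b : Ω} (hab : a ≠ b) :
    E a b ≠ 0 := by
  intro h0
  obtain ⟨s, a₁, b₁, h1, h2, h3, h4, -, h5, h6, h7⟩ := h.orb hab
  obtain rfl : s = 0 := by
    rw [h0, mul_zero] at h4
    exact_mod_cast h4.symm
  have hsq : ∀ x y, orbMat G a b x y ^ 2 = orbMat G a b x y := fun x y => by
    rcases orbMat_cases (G := G) a b x y with ⟨h8, -⟩ | ⟨h8, -⟩ <;> simp [h8]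
  have h8 : ∑ d, (orbMat G a b (ω 0) (t d • ω 0) - orbMat G a b (ω 1) (t d • ω 1)) ^ 2 = 0 := by
    simp only [sub_sq, hsq, Finset.sum_add_distrib, Finset.sum_sub_distrib, mul_assoc, ← Finset.mul_sum]
    linear_combination 2 * h3 - h5 - h6 - 2 * h2
  have h9 : ∀ d, orbMat G a b (ω 1) (t d • ω 1) = orbMat G a b (ω 0) (t d • ω 0) := fun d =>
    (sub_eq_zero.1 (pow_eq_zero_iff two_ne_zero |>.1
      ((Finset.sum_eq_zero_iff_of_nonneg fun _ _ => sq_nonneg _).1 h8 d (Finset.mem_univ _)))).symm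
  obtain ⟨ψ, hψ⟩ := const_of_sum_eq_zero (p := p)
  have h10 := h7 ψ
  have h11 : hat t ω ψ (orbC G a b) 1 1 = hat t ω ψ (orbC G a b) 0 0 := by
    simp only [hat, Matrix.of_apply, orbC_apply, h9]
  have h12 : hat t ω ψ (orbC G a b) 0 0 * (2 * hat t ω ψ E 0 0 - 1) = 0 := by
    rw [h11] at h10
    push_cast at h10
    linear_combination h10
  rcases mul_eq_zero.1 h12 with h13 | h13
  · have h14 := hψ (fun d => orbMat G a b (ω 0) (t d • ω 0)) (by simpa [hat, orbC_apply] using h13)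
    have h15 : orbMat G a b (ω 0) (t 0 • ω 0) = 0 :=
      ((orbMat_cases (G := G) a b _ _).resolve_right fun h' => h.ne_zero_of_orb hab h'.2 rfl).1
    have h16 : ∀ d, orbMat G a b (ω 0) (t d • ω 0) = 0 := fun d => by
      have := h14 d
      rw [h15] at this
      exact_mod_cast this
    simp only [h16, Finset.sum_const_zero] at h5
    have := card_pos (G := G) a b
    omega
  · choose q hq using fun d => h.rat (ω 0) (t d • ω 0)
    have h14 := hψ (fun d => 2 * q d - if d = 0 then 1 else 0) (by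
      rw [← h13]
      simp only [hat, Matrix.of_apply, hq, Finset.mul_sum]
      push_cast
      simp only [sub_mul, Finset.sum_sub_distrib, mul_assoc]
      congr 1
      rw [Finset.sum_eq_single 0] <;> simp +contextual) d₀
    have h15 := hq 0
    rw [h.zero, one_smul, h.diag] at h15
    have h16 : q 0 = 1 / 2 := Rat.cast_injective (α := ℂ) (by rw [← h15]; simp)
    simp only [if_neg hd, if_true, h16] at h14
    apply hd'
    rw [hq, show q d₀ = 0 by linarith, Rat.cast_zero]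

theorem main (hG : IsPreprimitive G Ω) :
    Nat.card (orbitRel.Quotient (stabilizer G (ω 0)) Ω) = 3 ∧ ∃ a : ℕ, 0 < a ∧ p = 2 * a ^ 2 + 2 * a + 1 ∧
      ∀ b : Ω, b ≠ ω 0 → Nat.card (orbit (stabilizer G (ω 0)) b) = a * (2 * a + 1) ∨
        Nat.card (orbit (stabilizer G (ω 0)) b) = (a + 1) * (2 * a + 1) := by
  classical
  have hn1 : ∀ {a b : Ω}, a ≠ b → Nat.card (orbit (stabilizer G a) b) ≠ 1 := by
    intro a b hab h1
    have h2 := card_orbit_eq_one_of_prim hG hab h1
    have h3 : ∀ y, E a y = (if a = y then 1 else 0) - 1 / 2 := by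
      intro y
      split_ifs with hy
      · rw [← hy, h.diag]; norm_num
      by_cases h0 : E a y = 0
      · exfalso
        obtain ⟨s, a₁, b₁, h4, h5, -, h6, -⟩ := h.orb hy
        rw [h0, mul_zero] at h6
        have : s = 0 := by exact_mod_cast h6.symm
        rw [h2] at h4
        omega
      obtain ⟨s, -, h4, h5, -⟩ := h.orb_ne hy h0
      rw [h2] at h4
      obtain rfl : s = -1 := by
        have := Int.eq_one_or_neg_one_of_mul_eq_one h4.symm
        rcases this with rfl | rfl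
        · simp at h4
        · rfl
      push_cast at h5
      linear_combination (-1 / 2 : ℂ) * h5
    have h4 := h.row a
    simp only [h3, Finset.sum_sub_distrib, Finset.sum_ite_eq, Finset.mem_univ, if_true, Finset.sum_const,
      Finset.card_univ, h.card_eq, nsmul_eq_mul] at h4
    push_cast at h4
    exact hp.out.ne_one (by exact_mod_cast (show (p : ℂ) = 1 by linear_combination -h4))
  obtain ⟨y, hy, hy0⟩ : ∃ y, ω 0 ≠ y ∧ E (ω 0) y ≠ 0 := by
    by_contra h1
    push Not at h1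
    have h2 := h.row (ω 0)
    rw [Finset.sum_eq_single (ω 0) (fun y _ hy => h1 y hy.symm) (by simp), h.diag] at h2
    norm_num at h2
  obtain ⟨s, hs0, hs1, hs2, hs3⟩ := h.orb_ne hy hy0
  have hs4 : s + 1 ≠ 0 := fun h1 => hn1 hy (by
    obtain rfl : s = -1 := by omega
    omega)
  obtain ⟨d, hd⟩ : ∃ d, ∃ g : G, g • ω 0 = ω 0 ∧ g • y = t d • ω 0 := by
    by_contra h1
    push Not at h1
    rw [Finset.sum_eq_zero fun d _ => ((orbMat_cases _ _ _ _).resolve_right
      fun ⟨_, g, h2, h3⟩ => h1 d g h2 h3).1] at hs3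
    exact mul_ne_zero hs0 hs4 hs3.symm
  have hd0 := h.ne_zero_of_orb hy hd
  obtain ⟨g, hg, hg'⟩ := hd
  have hE1 : E (ω 0) (t d • ω 0) = E (ω 0) y := by rw [← hg', ← h.inv g (ω 0) y, hg]
  have hne : ∀ {a b : Ω}, a ≠ b → E a b ≠ 0 := h.ne_zero hd0 (hE1 ▸ hy0)
  obtain ⟨k, hk⟩ := exists_smul_eq G (ω 1) (ω 0)
  set y' := k • t d • ω 1 with hy'd
  have hy' : ω 0 ≠ y' := by
    rw [hy'd, ← hk, Ne, smul_left_cancel_iff, h.eq_iff]
    exact fun h1 => hd0 h1.2
  have hE2 : E (ω 0) y' = - E (ω 0) y := by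
    have := h.tr d
    rw [if_neg hd0, hE1, ← h.inv k (ω 1), hk] at this
    linear_combination this
  obtain ⟨s', -, hs1', hs2', -⟩ := h.orb_ne hy' (hne hy')
  obtain rfl : s' = -s - 1 := by
    apply Int.cast_injective (α := ℂ)
    apply mul_left_cancel₀ hy0
    rw [hE2] at hs2'
    push_cast
    linear_combination (1 / 4 : ℂ) * hs2 - (1 / 4 : ℂ) * hs2'
  set H := stabilizer G (ω 0)
  have hEo : ∀ z w, z ∈ orbit H w → E (ω 0) z = E (ω 0) w := by
    rintro _ w ⟨m, rfl⟩
    show E (ω 0) ((m : G) • w) = _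
    rw [← h.inv m (ω 0) w, show (m : G) • ω 0 = ω 0 from m.2]
  have ho : ∀ w, ω 0 ≠ w → ω 0 ∉ orbit H w := fun w hw h1 => by
    obtain ⟨m, hm⟩ := mem_orbit_symm.1 h1
    exact hw ((show (m : G) • ω 0 = ω 0 from m.2).symm.trans hm)
  have hyy : ∀ z ∈ orbit H y, z ∉ orbit H y' := fun z h1 h2 => by
    have h3 := hEo z y h1
    rw [hEo z y' h2, hE2] at h3
    exact hy0 (by linear_combination (-1 / 2 : ℂ) * h3)
  have hdis : Disjoint (orbit H y).toFinset (orbit H y').toFinset := by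
    rw [Finset.disjoint_left]
    simpa using hyy
  have hnot : ω 0 ∉ (orbit H y).toFinset ∪ (orbit H y').toFinset := by simp [ho y hy, ho y' hy']
  have hc : ∀ w : Ω, (orbit H w).toFinset.card = Nat.card (orbit H w) := fun w => by
    rw [Set.toFinset_card, Nat.card_eq_fintype_card]
  have hall : insert (ω 0) ((orbit H y).toFinset ∪ (orbit H y').toFinset) = Finset.univ := by
    choose q hq using h.rat (ω 0)
    by_contra h1
    obtain ⟨z, hz⟩ : ∃ z, z ∉ insert (ω 0) ((orbit H y).toFinset ∪ (orbit H y').toFinset) := by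
      by_contra h2
      push Not at h2
      exact h1 (Finset.eq_univ_iff_forall.2 h2)
    have h2 : q z ≠ 0 := fun h3 => hne (a := ω 0) (b := z) (fun h4 => hz (by simp [h4]))
      (by rw [hq, h3, Rat.cast_zero])
    have h3 := Finset.sum_lt_sum_of_subset (f := fun z => q z ^ 2) (Finset.subset_univ _)
      (Finset.mem_univ z) hz (by positivity) (fun _ _ _ => sq_nonneg _)
    refine h3.ne (Rat.cast_injective (α := ℂ) ?_)
    push_cast
    simp only [← hq]
    have h4 := congrFun (congrFun h.idem (ω 0)) (ω 0)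
    simp only [Matrix.mul_apply, h.symm _ (ω 0), ← sq] at h4
    have h7 : ∀ w, ∑ z ∈ (orbit H w).toFinset, E (ω 0) z ^ 2 = Nat.card (orbit H w) * E (ω 0) w ^ 2 := by
      intro w
      rw [Finset.sum_congr rfl (g := fun _ => E (ω 0) w ^ 2) fun z hz => by
        rw [hEo z w (Set.mem_toFinset.1 hz)], Finset.sum_const, hc, nsmul_eq_mul]
    rw [h4, Finset.sum_insert hnot, Finset.sum_union hdis, h7, h7, h.diag, hE2]
    have h5 := congrArg (Int.cast : ℤ → ℂ) hs1
    have h6 := congrArg (Int.cast : ℤ → ℂ) hs1'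
    push_cast at h5 h6
    rw [h5, h6]
    linear_combination (1 / 4 * (2 * (2 * s + 1) * E (ω 0) y + 1) : ℂ) * hs2
  have hz : ∀ z, z = ω 0 ∨ z ∈ orbit H y ∨ z ∈ orbit H y' := fun z => by
    simpa using hall.ge (Finset.mem_univ z)
  refine ⟨?_, ?_⟩
  · rw [← Set.ncard_univ, Set.ncard_eq_three]
    refine ⟨Quotient.mk'' (ω 0), Quotient.mk'' y, Quotient.mk'' y',
      fun h1 => ho y hy (orbitRel_apply.1 (Quotient.exact' h1)),
      fun h1 => ho y' hy' (orbitRel_apply.1 (Quotient.exact' h1)),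
      fun h1 => hyy y (mem_orbit_self y) (orbitRel_apply.1 (Quotient.exact' h1)), ?_⟩
    ext c
    induction c using Quotient.inductionOn' with
    | h z =>
    rcases hz z with h1 | h1 | h1
    · simp [h1]
    · simp [Quotient.sound' (orbitRel_apply.2 h1)]
    · simp [Quotient.sound' (orbitRel_apply.2 h1)]
  have hcard := congrArg Finset.card hall
  rw [Finset.card_insert_of_notMem hnot, Finset.card_union_of_disjoint hdis, hc, hc, Finset.card_univ,
    h.card_eq] at hcard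
  have hp2 : (p : ℤ) = 2 * s ^ 2 + 2 * s + 1 := by
    have := congrArg (Nat.cast : ℕ → ℤ) hcard
    push_cast at this
    rw [hs1, hs1'] at this
    linarith
  have hb : ∀ b, b ≠ ω 0 → (Nat.card (orbit H b) : ℤ) = s * (2 * s + 1) ∨
      (Nat.card (orbit H b) : ℤ) = (s + 1) * (2 * s + 1) := fun b hb => by
    rcases (hz b).resolve_left hb with h1 | h1
    · left; rw [orbit_eq_iff.2 h1, hs1]
    · right; rw [orbit_eq_iff.2 h1, hs1']; ring
  rcases lt_or_gt_of_ne hs0 with h1 | h1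
  · obtain ⟨a, ha⟩ : ∃ a : ℕ, s = -a - 1 := ⟨(-s - 1).toNat, by omega⟩
    subst ha
    refine ⟨a, by omega, by zify; rw [hp2]; ring, fun b hb' => ?_⟩
    zify
    rcases hb b hb' with h2 | h2
    · right; rw [h2]; ring
    · left; rw [h2]; ring
  · obtain ⟨a, rfl⟩ : ∃ a : ℕ, s = a := ⟨s.toNat, by omega⟩
    refine ⟨a, by omega, by exact_mod_cast hp2, fun b hb' => ?_⟩
    exact_mod_cast hb b hb'

end W2

end H27
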